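import Mathlib

set_option autoImplicit false

/-! Coprime action on a finite abelian group: `M = C_M(A) × [M, A]` (helper88). -/

namespace Cfsg.Agent.Lib.Helper88

open scoped BigOperators

variable {M : Type*} [CommGroup M] [Finite M] (A : Subgroup (MulAut M))

/-- fixed points of `A` -/
def fixedSub : Subgroup M where
  carrier := {x | ∀ α ∈ A, α x = x}
  one_mem' := fun α _ => map_one α
  mul_mem' := fun {a b} ha hb α hα => by rw [map_mul, ha α hα, hb α hα]
  inv_mem' := fun {a} ha α hα => by rw [map_inv, ha α hα]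

omit [Finite M] in
theorem mem_fixedSub {x : M} : x ∈ fixedSub A ↔ ∀ α ∈ A, α x = x := Iff.rfl

/-- the commutator `[M, A]` -/
def commSub : Subgroup M := Subgroup.closure {y | ∃ α ∈ A, ∃ x : M, y = x⁻¹ * α x}

/-- the norm map -/
noncomputable def normMap : M →* M :=
  letI : Fintype A := Fintype.ofFinite A
  { toFun := fun x => ∏ α : A, (α : MulAut M) x
    map_one' := by simp
    map_mul' := fun x y => by simp [Finset.prod_mul_distrib] }

theorem normMap_apply [Fintype A] (x : M) : normMap A x = ∏ α : A, (α : MulAut M) x := by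
  unfold normMap
  simp only [MonoidHom.coe_mk, OneHom.coe_mk]
  congr!

theorem normMap_mem_fixedSub (x : M) : normMap A x ∈ fixedSub A := by
  let _ : Fintype A := Fintype.ofFinite A
  intro β hβ
  rw [normMap_apply, map_prod]
  exact Fintype.prod_equiv (Equiv.mulLeft (⟨β, hβ⟩ : A)) _ _ (fun α => rfl)

theorem normMap_of_mem_fixedSub {x : M} (hx : x ∈ fixedSub A) : normMap A x = x ^ Nat.card A := by
  let _ : Fintype A := Fintype.ofFinite A
  rw [normMap_apply, Finset.prod_congr rfl (fun (α : A) _ => hx (α : MulAut M) α.2),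
    Finset.prod_const, Finset.card_univ, Nat.card_eq_fintype_card]

theorem normMap_apply_aut {α : MulAut M} (hα : α ∈ A) (x : M) : normMap A (α x) = normMap A x := by
  let _ : Fintype A := Fintype.ofFinite A
  rw [normMap_apply, normMap_apply]
  exact Fintype.prod_equiv (Equiv.mulRight (⟨α, hα⟩ : A)) _ _ (fun β => rfl)

theorem commSub_le_ker : commSub A ≤ (normMap A).ker := by
  unfold commSub
  rw [Subgroup.closure_le]
  rintro _ ⟨α, hα, x, rfl⟩
  show normMap A (x⁻¹ * α x) = 1
  rw [map_mul, map_inv, normMap_apply_aut A hα, inv_mul_cancel]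

theorem pow_card_mul_inv_normMap_mem (x : M) : (normMap A x)⁻¹ * x ^ Nat.card A ∈ commSub A := by
  let _ : Fintype A := Fintype.ofFinite A
  have : (normMap A x)⁻¹ * x ^ Nat.card A = ∏ α : A, (x⁻¹ * (α : MulAut M) x)⁻¹ := by
    rw [normMap_apply]
    simp only [mul_inv, inv_inv, Finset.prod_mul_distrib, Finset.prod_const, Finset.card_univ,
      Nat.card_eq_fintype_card, Finset.prod_inv_distrib]
    rw [mul_comm]
  rw [this]
  apply Subgroup.prod_mem
  intro α _
  apply Subgroup.inv_mem
  exact Subgroup.subset_closure ⟨α, α.2, x, rfl⟩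

theorem fixedSub_inf_commSub (h : (Nat.card A).Coprime (Nat.card M)) :
    fixedSub A ⊓ commSub A = ⊥ := by
  rw [eq_bot_iff]
  rintro x ⟨h1, h2⟩
  have e1 := normMap_of_mem_fixedSub A h1
  have e2 : normMap A x = 1 := commSub_le_ker A h2
  rw [e2] at e1
  have h3 : orderOf x ∣ Nat.card A := orderOf_dvd_of_pow_eq_one e1.symm
  have h4 : orderOf x ∣ Nat.card M := orderOf_dvd_natCard x
  have h5 : orderOf x = 1 := Nat.eq_one_of_dvd_coprimes h h3 h4
  exact orderOf_eq_one_iff.1 h5

theorem fixedSub_sup_commSub (h : (Nat.card A).Coprime (Nat.card M)) :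
    fixedSub A ⊔ commSub A = ⊤ := by
  rw [eq_top_iff]
  intro x _
  have h1 : x ^ Nat.card A ∈ fixedSub A ⊔ commSub A := by
    have : x ^ Nat.card A = normMap A x * ((normMap A x)⁻¹ * x ^ Nat.card A) := by group
    rw [this]
    exact Subgroup.mul_mem_sup (normMap_mem_fixedSub A x) (pow_card_mul_inv_normMap_mem A x)
  have h2 : (Nat.card A).Coprime (orderOf x) := h.coprime_dvd_right (orderOf_dvd_natCard x)
  obtain ⟨m, hm⟩ := exists_pow_eq_self_of_coprime h2
  rw [← hm]
  exact Subgroup.pow_mem _ h1 m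

end Cfsg.Agent.Lib.Helper88
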