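import Mathlib
import Cfsg.Agent.Lib.Helper88.FusFree3
import Cfsg.Agent.Lib.Helper88.FusFree2
import Cfsg.Agent.Lib.Helper2.FusCtl3
import Cfsg.Agent.Lib.Helper24.PGroup

set_option autoImplicit false

/-! `S C_F(Q)` is `H`-free when `F` is, for `Q` normal in `F` (helper88). -/

namespace Cfsg.Agent.Lib.Helper88

open Cfsg Cfsg.FusionSystem Cfsg.Agent.Lib.Helper84 Cfsg.Agent.Lib.Helper85 Cfsg.Agent.Lib.Lead

universe u

/-- the preimage of a `p`-subgroup under a homomorphism defined on a group of characteristic `p`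
has characteristic `p` -/
theorem charP_comap {G A : Type*} [Group G] [Finite G] [Group A] {p : ℕ} [Fact p.Prime]
    (h : Subgroup.centralizer ((pCore p G : Subgroup G) : Set G) ≤ pCore p G) (ρ : G →* A)
    (B : Subgroup A) (hB : IsPGroup p B) :
    Subgroup.centralizer ((pCore p ↥(B.comap ρ) : Subgroup ↥(B.comap ρ)) : Set ↥(B.comap ρ)) ≤
      pCore p ↥(B.comap ρ) := by
  obtain ⟨M, hM⟩ : ∃ M, M = B.comap ρ := ⟨_, rfl⟩
  rw [← hM]
  have hker : ρ.ker ≤ M := by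
    intro x hx
    rw [hM, Subgroup.mem_comap, MonoidHom.mem_ker.1 hx]
    exact B.one_mem
  obtain ⟨D₀, hD₀⟩ : ∃ D₀ : Subgroup G, D₀ = pCore p G ⊓ ρ.ker := ⟨_, rfl⟩
  have hOn : (pCore p G).Normal := pCore_normal' p G
  have hD₀n : D₀.Normal := hD₀ ▸ inferInstance
  have hD₀p : IsPGroup p D₀ := (pCore_isPGroup p G).to_le (hD₀ ▸ inf_le_left)
  have hD₀M : D₀.subgroupOf M ≤ pCore p M :=
    le_pCore inferInstance (hD₀p.comap_of_injective _ (Subgroup.subtype_injective _))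
  have hOMn : (pCore p M).Normal := pCore_normal' p M
  apply le_pCore inferInstance
  rintro ⟨x, hx⟩
  rw [Subgroup.mem_centralizer_iff] at hx
  obtain ⟨a, ha⟩ := hB ⟨ρ x, hM.le x.2⟩
  have ha' : ρ (x : G) ^ p ^ a = 1 := congrArg Subtype.val ha
  obtain ⟨y, hy⟩ : ∃ y : G, y = (x : G) ^ p ^ a := ⟨_, rfl⟩
  have hyker : ρ y = 1 := by rw [hy, map_pow, ha']
  have hxd : ∀ d ∈ D₀, d * (x : G) = (x : G) * d := by
    intro d hd
    have hdM : d ∈ M := hker (hD₀.le hd).2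
    exact congrArg Subtype.val (hx ⟨d, hdM⟩ (hD₀M hd))
  have hyd : ∀ d ∈ D₀, Commute y d := by
    intro d hd
    rw [hy]
    have h1 : Commute (x : G) d := (hxd d hd).symm
    exact h1.pow_left _
  have hdo : ∀ o ∈ pCore p G, o⁻¹ * (y * o * y⁻¹) ∈ D₀ := by
    intro o ho
    rw [hD₀]
    refine ⟨(pCore p G).mul_mem ((pCore p G).inv_mem ho) (hOn.conj_mem o ho y), ?_⟩
    show _ ∈ ρ.ker
    rw [MonoidHom.mem_ker]
    simp [hyker]
  have hpow : ∀ o ∈ pCore p G, ∀ k : ℕ, y ^ k * o * (y ^ k)⁻¹ = o * (o⁻¹ * (y * o * y⁻¹)) ^ k := by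
    intro o ho k
    induction k with
    | zero => simp
    | succ k ih =>
      have hc := hyd _ (hdo o ho)
      have hc' : Commute y ((o⁻¹ * (y * o * y⁻¹)) ^ k) := hc.pow_right k
      calc y ^ (k + 1) * o * (y ^ (k + 1))⁻¹ = y * (y ^ k * o * (y ^ k)⁻¹) * y⁻¹ := by
            rw [pow_succ']; group
        _ = y * (o * (o⁻¹ * (y * o * y⁻¹)) ^ k) * y⁻¹ := by rw [ih]
        _ = (y * o * y⁻¹) * (y * (o⁻¹ * (y * o * y⁻¹)) ^ k * y⁻¹) := by group
        _ = (y * o * y⁻¹) * (o⁻¹ * (y * o * y⁻¹)) ^ k := by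
            rw [hc'.eq, mul_inv_cancel_right]
        _ = o * (o⁻¹ * (y * o * y⁻¹)) ^ (k + 1) := by
            rw [pow_succ', ← mul_assoc o, mul_inv_cancel_left]
  obtain ⟨b, hb⟩ := IsPGroup.iff_card.1 hD₀p
  have hyc : y ^ p ^ b ∈ Subgroup.centralizer ((pCore p G : Subgroup G) : Set G) := by
    rw [Subgroup.mem_centralizer_iff]
    intro o ho
    have h1 := hpow o ho (p ^ b)
    have h2 : (o⁻¹ * (y * o * y⁻¹)) ^ p ^ b = 1 := by
      have h3 : (⟨_, hdo o ho⟩ : D₀) ^ Nat.card D₀ = 1 := pow_card_eq_one'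
      rw [hb] at h3
      exact congrArg Subtype.val h3
    rw [h2, mul_one, mul_inv_eq_iff_eq_mul] at h1
    exact h1.symm
  obtain ⟨c, hc⟩ := pCore_isPGroup p G ⟨_, h hyc⟩
  have hc' : (y ^ p ^ b) ^ p ^ c = 1 := congrArg Subtype.val hc
  refine ⟨a + b + c, ?_⟩
  apply Subtype.ext
  apply Subtype.ext
  show (x : G) ^ p ^ (a + b + c) = 1
  rw [pow_add, pow_add, pow_mul, pow_mul, ← hy]
  exact hc'

/-- in a group of characteristic `p`, a normal `p`-subgroup containing its centralizer in `O_p`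
contains its centralizer -/
theorem centralizer_le_of_charP {G : Type*} [Group G] [Finite G] {p : ℕ} [Fact p.Prime]
    (h : Subgroup.centralizer ((pCore p G : Subgroup G) : Set G) ≤ pCore p G)
    (B : Subgroup G) (hBn : B.Normal) (hBp : IsPGroup p B)
    (hB : pCore p G ⊓ Subgroup.centralizer (B : Set G) ≤ B) :
    Subgroup.centralizer (B : Set G) ≤ B := by
  have hp : p.Prime := Fact.out
  have hOn : (pCore p G).Normal := pCore_normal' p G
  have hCn : (Subgroup.centralizer (B : Set G)).Normal := inferInstance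
  have hCp : IsPGroup p (Subgroup.centralizer (B : Set G)) := by
    rintro ⟨c, hc⟩
    obtain ⟨a, m, hm, hcm⟩ := Nat.exists_eq_pow_mul_and_not_dvd (orderOf_pos c).ne' p hp.ne_one
    refine ⟨a, Subtype.ext ?_⟩
    show c ^ p ^ a = 1
    obtain ⟨d, hd⟩ : ∃ d, d = c ^ p ^ a := ⟨_, rfl⟩
    rw [← hd]
    have hdm : d ^ m = 1 := by rw [hd, ← pow_mul, ← hcm, pow_orderOf_eq_one]
    have hdm' : orderOf d ∣ m := orderOf_dvd_of_pow_eq_one hdm
    have hcop : (Nat.card (Subgroup.zpowers d)).Coprime p := by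
      rw [Nat.card_zpowers]
      exact Nat.Coprime.coprime_dvd_left hdm' ((Nat.Prime.coprime_iff_not_dvd hp).2 hm).symm
    have hAB : Subgroup.zpowers d ≤ Subgroup.centralizer (B : Set G) := by
      rw [Subgroup.zpowers_le, hd]
      exact Subgroup.pow_mem _ hc _
    have h1 := Cfsg.Agent.Lib.Helper24.thompson_AxB p (Subgroup.zpowers d) B (pCore p G)
      (pCore_isPGroup p G) hBp hcop hAB
      (by rw [Subgroup.normalizer_eq_top]; exact le_top)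
      (by rw [Subgroup.normalizer_eq_top]; exact le_top)
      (hB.trans (Subgroup.le_centralizer_iff.1 hAB))
    have h2 : d ∈ pCore p G := h (Subgroup.le_centralizer_iff.1 h1 (Subgroup.mem_zpowers d))
    obtain ⟨k, hk⟩ := pCore_isPGroup p G ⟨d, h2⟩
    have hk' : d ^ p ^ k = 1 := congrArg Subtype.val hk
    have h3 : orderOf d ∣ p ^ k := orderOf_dvd_of_pow_eq_one hk'
    have h4 : orderOf d ∣ 1 := by
      have h5 : Nat.Coprime (p ^ k) m := Nat.Coprime.pow_left k ((Nat.Prime.coprime_iff_not_dvd hp).2 hm)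
      rw [← h5]
      exact Nat.dvd_gcd h3 hdm'
    exact orderOf_eq_one_iff.1 (Nat.dvd_one.1 h4)
  exact (le_inf (le_pCore hCn hCp) le_rfl).trans hB

variable {Ω : Type u} [Group Ω] {S : Subgroup Ω}

/-- maps of `F` preserve a normal subgroup -/
theorem normal_map_mem {F : FusionSystem S} {Q : Subgroup Ω} (hQ : F.IsNormal Q) {P : Subgroup Ω}
    {χ : P →* Ω} (hχ : χ ∈ F.Hom P) (x : P) (hx : (x : Ω) ∈ Q) : χ x ∈ Q := by
  obtain ⟨ψ, -, h1, h2⟩ := hQ.2 P χ hχ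
  rw [← h1]
  exact h2.le ⟨_, hx, rfl⟩

/-- the restriction to the normal subgroup `Q` of a map defined on `P ≥ Q` extends to
`P C_S(Q)` -/
theorem exists_extend_normal [Finite S] {p : ℕ} {F : FusionSystem S} (hF : F.IsSaturated p)
    {Q : Subgroup Ω} (hQ : F.IsNormal Q) {P : Subgroup Ω} {χ : P →* Ω} (hχ : χ ∈ F.Hom P)
    (hQP : Q ≤ P) :
    ∃ N : Subgroup Ω, P ≤ N ∧ centralizerIn S Q ≤ N ∧
      ∃ β ∈ F.Hom N, ∀ (y : Ω) (hy : y ∈ Q) (hN : y ∈ N), β ⟨y, hN⟩ = χ ⟨y, hQP hy⟩ := by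
  have hfinQ : Finite Q := finite_of_le hQ.1
  have hPS : P ≤ S := (F.le_of_mem hχ).1
  have hrec := (normal_sat hF hQ).2
  have hχQ := normal_map_mem hQ hχ
  have hχQm : χ.comp (Subgroup.inclusion hQP) ∈ F.Hom Q :=
    Cfsg.Agent.Lib.Helper84.restrict_mem F hχ hQP
  have hpre := Cfsg.Agent.Lib.Helper2.exists_preimage_of_maps_into hQP χ (F.injective_of_mem hχ) hχQ
  have hrange : (χ.comp (Subgroup.inclusion hQP)).range = Q := by
    ext y
    constructor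
    · rintro ⟨q, rfl⟩
      exact hχQ _ q.2
    · intro hy
      obtain ⟨z, hz, rfl⟩ := hpre y hy
      exact ⟨⟨z, hz⟩, rfl⟩
  obtain ⟨β, hβ, hβQ⟩ := hrec.2 Q _ hχQm hrange
  refine ⟨_, ?_, centralizerIn_le_extender _, β, hβ, fun y hy hN => hβQ y hy hN⟩
  intro g hg
  rw [mem_extender_iff]
  refine ⟨hPS hg, normal_le_normalizer hQ (hPS hg), χ ⟨g, hg⟩, (F.le_of_mem hχ).2 _,
    fun y hy => ?_⟩
  show χ ⟨g * (y : Ω) * g⁻¹, _⟩ = χ ⟨g, hg⟩ * χ ⟨y, hQP y.2⟩ * (χ ⟨g, hg⟩)⁻¹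
  rw [← map_inv, ← map_mul, ← map_mul]
  rfl

/-- a centric subgroup of `S C_F(Q)` containing `Q` is centric in `F` -/
theorem centric_of_centric_kSystem [Finite S] {p : ℕ} {F : FusionSystem S}
    (hF : F.IsSaturated p) {Q : Subgroup Ω} (hQ : F.IsNormal Q)
    (hconj : ∀ g ∈ S, ∃ a ∈ autInducedBy S Q, ∀ x : Q, g * (x : Ω) * g⁻¹ = (a x : Q))
    {U : Subgroup Ω} (hQU : Q ≤ U)
    (hUc : (kSystem F Q (autInducedBy S Q) hQ.1 hconj).IsCentric U) : F.IsCentric U := by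
  refine ⟨hUc.1, ?_⟩
  rintro _ ⟨ψ, hψ, rfl⟩
  obtain ⟨ρ, hρ, hρ1, hρ2, -⟩ := Cfsg.Agent.Lib.Helper85.inv_mem' F hψ rfl
  have hfinQ : Finite Q := finite_of_le hQ.1
  have hQr : Q ≤ ψ.range := by
    intro q hq
    obtain ⟨z, -, hz⟩ := Cfsg.Agent.Lib.Helper2.exists_preimage_of_maps_into hQU ψ
      (F.injective_of_mem hψ) (normal_map_mem hQ hψ) q hq
    exact ⟨z, hz⟩
  obtain ⟨N, hPN, hCN, β, hβ, hβQ⟩ := exists_extend_normal hF hQ hρ hQr
  have hκ := F.comp_mem hψ hβ (fun x => hPN ⟨x, rfl⟩)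
  have hκE := Cfsg.Agent.Lib.Helper2.mem_kSystem_of_le F Q (autInducedBy S Q) hQ.1 hconj hκ hQU
    ⟨1, Subgroup.one_mem _, by
      intro q
      show β ⟨ψ ⟨q, hQU q.2⟩, _⟩ = (q : Ω)
      rw [hβQ _ (normal_map_mem hQ hψ _ q.2)]
      exact hρ1 ⟨q, hQU q.2⟩ _⟩
  have hcen := hUc.2 _ ⟨_, hκE, rfl⟩
  intro c hc
  have hc2 : c ∈ Subgroup.centralizer ((ψ.range : Subgroup Ω) : Set Ω) := hc.2
  have hcQ : c ∈ centralizerIn S Q := by
    refine ⟨hc.1, ?_⟩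
    show c ∈ Subgroup.centralizer (Q : Set Ω)
    rw [Subgroup.mem_centralizer_iff] at hc2 ⊢
    intro q hq
    exact hc2 q (hQr hq)
  have h3 : β ⟨c, hCN hcQ⟩ ∈ centralizerIn S
      (β.comp (ψ.codRestrict N (fun x => hPN ⟨x, rfl⟩))).range := by
    refine ⟨(F.le_of_mem hβ).2 _, ?_⟩
    show _ ∈ Subgroup.centralizer _
    rw [Subgroup.mem_centralizer_iff]
    rintro _ ⟨z, rfl⟩
    show β ⟨ψ z, _⟩ * β ⟨c, _⟩ = β ⟨c, _⟩ * β ⟨ψ z, _⟩
    rw [← map_mul, ← map_mul]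
    exact congrArg β (Subtype.ext ((Subgroup.mem_centralizer_iff.1 hc2) _ ⟨z, rfl⟩))
  obtain ⟨z, hz⟩ := hcen h3
  have h4 : (⟨ψ z, hPN ⟨z, rfl⟩⟩ : N) = ⟨c, hCN hcQ⟩ := F.injective_of_mem hβ hz
  have h5 : ψ z = c := congrArg Subtype.val h4
  exact ⟨z, h5⟩

/-- **Sub-model lemma for `S C_F(Q)`.** -/
theorem exists_submodel_inn [Finite S] {p : ℕ} [Fact p.Prime] (hS : IsPGroup p S)
    {F : FusionSystem S} (hF : F.IsSaturated p) {Q : Subgroup Ω} (hQ : F.IsNormal Q)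
    (hconj : ∀ g ∈ S, ∃ a ∈ autInducedBy S Q, ∀ x : Q, g * (x : Ω) * g⁻¹ = (a x : Q))
    {E : FusionSystem S} (hE : E = kSystem F Q (autInducedBy S Q) hQ.1 hconj)
    (hEsat : E.IsSaturated p)
    {U : Subgroup Ω} (hQU : Q ≤ U) (hUfn : E.IsFullyNormalized U) (hUc : E.IsCentric U)
    {N₂ : FusionSystem (normalizerIn S U)} (hN₂ : E.IsNormalizerSystem U N₂)
    {U' : Subgroup Ω} (hU'fn : F.IsFullyNormalized U') (hU'c : F.IsCentric U')
    (hconjU : F.IsConj U U')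
    (N' : FusionSystem (normalizerIn S U')) (hN' : F.IsNormalizerSystem U' N')
    {L' : Type*} [Group L'] (ι' : ↥(normalizerIn S U') →* L') (hM : N'.IsModel p L' ι') :
    ∃ (M : Subgroup L') (j : ↥(normalizerIn S U) →* M),
      N₂.IsModel p (M ⧸ (⊥ : Subgroup M)) ((QuotientGroup.mk' ⊥).comp j) := by
  obtain ⟨hfin, hr', ⟨T', hT'⟩, hC'⟩ := hM
  obtain ⟨-, h₁, h₂⟩ := sat_fullyNormalized hS hF hU'fn
  obtain ⟨φ, hφ, hφN, hφR⟩ := exists_normalizer_hom hS F h₁ h₂ hconjU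
  have hφinj := F.injective_of_mem hφ
  have hU'S := hU'fn.1
  have hUS := hUc.1
  have hUN : U ≤ normalizerIn S U := Cfsg.Agent.Lib.Helper84.le_normalizerIn hUS
  have hU'N : U' ≤ normalizerIn S U' := Cfsg.Agent.Lib.Helper84.le_normalizerIn hU'S
  have hQN : Q ≤ normalizerIn S U := hQU.trans hUN
  have hfinT : Finite ↥(normalizerIn S U) := finite_of_le (normalizerIn_le S U)
  have hST : IsPGroup p ↥(normalizerIn S U) := hS.to_le (normalizerIn_le S U)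
  obtain ⟨J, hJ⟩ : ∃ J : ↥(normalizerIn S U) →* L', ∀ x, J x = ι' ⟨φ x, hφN x⟩ :=
    ⟨ι'.comp (φ.codRestrict _ hφN), fun _ => rfl⟩
  have hJinj : Function.Injective J := by
    intro a b hab
    rw [hJ, hJ] at hab
    exact hφinj (congrArg Subtype.val (hr'.1 hab))
  have hOn : (pCore p L').Normal := pCore_normal' p L'
  have hOr : pCore p L' ≤ ι'.range := hT' ▸ pCore_le_sylow T'
  have hU'n : N'.IsNormal U' := normal_normalizerSystem hU'S hN'
  have hRLn : (imageAlong ι' U').Normal := realized_normal_image hr' hOn hOr hC' hU'n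
  have hJR : ∀ (g : L') (r : ↥(normalizerIn S U)), (r : Ω) ∈ U →
      ∃ r' : ↥(normalizerIn S U), (r' : Ω) ∈ U ∧ J r' = g * J r * g⁻¹ := by
    intro g r hr
    have h1 : J r ∈ imageAlong ι' U' := by
      rw [hJ]
      exact mem_imageAlong.2 ⟨_, hφR.le ⟨r, hr, rfl⟩, rfl⟩
    obtain ⟨y, hy, hy'⟩ := mem_imageAlong.1 (hRLn.conj_mem _ h1 g)
    obtain ⟨r', hr', hr''⟩ := hφR.ge hy
    refine ⟨r', hr', ?_⟩
    rw [← hy', hJ]
    exact congrArg ι' (Subtype.ext hr'')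
  -- the subgroup `M`
  obtain ⟨M, hMdef⟩ : ∃ M : Subgroup L', ∀ g, g ∈ M ↔ ∃ s, ∃ hs : s ∈ S, ∀ (q : Ω) (hq : q ∈ Q),
      g * J ⟨q, hQN hq⟩ * g⁻¹ = J ⟨s * q * s⁻¹, hQN (normal_conj_mem hQ hs hq)⟩ := by
    refine ⟨{ carrier := {g | ∃ s, ∃ hs : s ∈ S, ∀ (q : Ω) (hq : q ∈ Q),
                g * J ⟨q, hQN hq⟩ * g⁻¹ = J ⟨s * q * s⁻¹, hQN (normal_conj_mem hQ hs hq)⟩}
              mul_mem' := ?_
              one_mem' := ?_
              inv_mem' := ?_ }, fun g => Iff.rfl⟩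
    · rintro a b ⟨s₁, hs₁, h1⟩ ⟨s₂, hs₂, h2⟩
      refine ⟨s₁ * s₂, S.mul_mem hs₁ hs₂, fun q hq => ?_⟩
      calc a * b * J ⟨q, hQN hq⟩ * (a * b)⁻¹ = a * (b * J ⟨q, hQN hq⟩ * b⁻¹) * a⁻¹ := by group
        _ = J ⟨s₁ * (s₂ * q * s₂⁻¹) * s₁⁻¹, _⟩ := by
            rw [h2 q hq, h1 _ (normal_conj_mem hQ hs₂ hq)]
        _ = _ := congrArg J (Subtype.ext (by group))
    · refine ⟨1, S.one_mem, fun q hq => ?_⟩
      rw [one_mul, inv_one, mul_one]
      exact congrArg J (Subtype.ext (by simp))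
    · rintro a ⟨s, hs, h1⟩
      refine ⟨s⁻¹, S.inv_mem hs, fun q hq => ?_⟩
      have h2 := h1 _ (normal_conj_mem hQ (S.inv_mem hs) hq)
      have h3 : J ⟨s * (s⁻¹ * q * s⁻¹⁻¹) * s⁻¹, hQN (normal_conj_mem hQ hs
          (normal_conj_mem hQ (S.inv_mem hs) hq))⟩ = J ⟨q, hQN hq⟩ :=
        congrArg J (Subtype.ext (by group))
      rw [h3] at h2
      rw [← h2]
      group
  have hjM : ∀ x, J x ∈ M := by
    intro x
    rw [hMdef]
    refine ⟨x, x.2.1, fun q hq => ?_⟩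
    rw [← map_inv, ← map_mul, ← map_mul]
    rfl
  obtain ⟨j, hj⟩ : ∃ j : ↥(normalizerIn S U) →* M, ∀ x, ((j x : M) : L') = J x :=
    ⟨J.codRestrict M hjM, fun _ => rfl⟩
  have hjinj : Function.Injective j := by
    intro a b hab
    apply hJinj
    rw [← hj, ← hj, hab]
  have hN₂sat : N₂.IsSaturated p := normalizerSystem_saturated hS hEsat hUfn N₂ hN₂
  have hUn₂ : N₂.IsNormal U := normal_normalizerSystem hUS hN₂
  have hUc₂ : N₂.IsCentric U := by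
    refine ⟨hUN, fun Q' hQ' => ?_⟩
    rw [isConj_eq_of_normal hUn₂ hQ']
    intro c hc
    exact hUc.2 U (isConj_refl E hUS) ⟨normalizerIn_le S U hc.1, hc.2⟩
  have hBp : IsPGroup p (imageAlong ι' U') :=
    ((hS.to_le (normalizerIn_le S U')).to_subgroup _).map ι'
  have hB : pCore p L' ⊓ Subgroup.centralizer ((imageAlong ι' U' : Subgroup L') : Set L') ≤
      imageAlong ι' U' := by
    rintro x ⟨hx1, hx2⟩
    obtain ⟨t, rfl⟩ := hOr hx1
    refine mem_imageAlong.2 ⟨t, ?_, rfl⟩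
    apply hU'c.2 U' (isConj_refl F hU'S)
    refine ⟨t.2.1, ?_⟩
    show (t : Ω) ∈ Subgroup.centralizer (U' : Set Ω)
    rw [Subgroup.mem_centralizer_iff]
    intro u hu
    have hx2' : ι' t ∈ Subgroup.centralizer ((imageAlong ι' U' : Subgroup L') : Set L') := hx2
    have h1 := (Subgroup.mem_centralizer_iff.1 hx2') (ι' ⟨u, hU'N hu⟩)
      (mem_imageAlong.2 ⟨_, hu, rfl⟩)
    rw [← map_mul, ← map_mul] at h1
    exact congrArg Subtype.val (hr'.1 h1)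
  have hcenB := centralizer_le_of_charP hC' _ hRLn hBp hB
  refine ⟨M, j, isModel_quotient hST hN₂sat hUn₂ hUc₂ j hjinj ?_ ?_ ⊥ ?_ ?_ ?_⟩
  · -- realization of maps
    intro P χ hχ hUP
    have hχ' := hχ
    rw [hN₂] at hχ'
    obtain ⟨hχE, hPT, hχv, ψ, hψ, hψχ, hψU⟩ := hχ'
    rw [hE] at hχE
    obtain ⟨hχF, ψ₂, hψ₂, hψ₂χ, a, ha, hψ₂a⟩ := hχE
    obtain ⟨s, hs, hsa⟩ := (Cfsg.Agent.Lib.Helper84.mem_autInducedBy_iff S Q a).1 ha
    have hχU : ∀ x : P, (x : Ω) ∈ U → χ x ∈ U := fun x hx => by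
      rw [← hψχ]
      exact hψU.le ⟨_, hx, rfl⟩
    have hχQ : ∀ (q : Ω) (hq : q ∈ Q), χ ⟨q, hUP (hQU hq)⟩ = s * q * s⁻¹ := by
      intro q hq
      rw [← hψ₂χ]
      exact (hψ₂a ⟨q, hq⟩).trans (hsa ⟨q, hq⟩)
    obtain ⟨χ', hχ'F, hχ'φ⟩ := exists_push F hφ hPT hχF hχv
    have hP'N : (P.subgroupOf (normalizerIn S U)).map φ ≤ normalizerIn S U' := by
      rintro _ ⟨x, -, rfl⟩
      exact hφN x
    have hU'P : U' ≤ (P.subgroupOf (normalizerIn S U)).map φ := by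
      intro y hy
      obtain ⟨r, hr, hry⟩ := hφR.ge hy
      exact ⟨r, hUP hr, hry⟩
    have hχ'U : ∀ y : ↥((P.subgroupOf (normalizerIn S U)).map φ),
        (y : Ω) ∈ U' → χ' y ∈ U' := by
      rintro ⟨_, x, hx, rfl⟩ hy
      obtain ⟨r, hr, hrx⟩ := hφR.ge hy
      have hrx' : r = x := hφinj hrx
      subst hrx'
      have h2 : χ' ⟨φ r, ⟨r, hx, rfl⟩⟩ = φ ⟨χ ⟨r, hx⟩, hχv _⟩ := hχ'φ ⟨r, hx⟩
      rw [h2]
      exact hφR.le ⟨_, hχU ⟨r, hx⟩ hr, rfl⟩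
    have hmem : χ' ∈ N'.Hom _ := by
      rw [hN']
      exact mem_normalizerHom_of_le F hU'P hP'N hχ'F hχ'U
    obtain ⟨g, hg⟩ := realized_exists_elt hr' hmem
    have key : ∀ x : P, J ⟨χ x, hχv x⟩ = g * J ⟨x, hPT x.2⟩ * g⁻¹ := by
      intro x
      rw [hJ, hJ]
      have h1 := hg ⟨φ ⟨x, hPT x.2⟩, ⟨⟨x, hPT x.2⟩, x.2, rfl⟩⟩
      refine Eq.trans ?_ h1
      exact congrArg ι' (Subtype.ext (hχ'φ x).symm)
    have hgM : g ∈ M := by
      rw [hMdef]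
      refine ⟨s, hs, fun q hq => ?_⟩
      rw [← key ⟨q, hUP (hQU hq)⟩]
      exact congrArg J (Subtype.ext (hχQ q hq))
    refine ⟨⟨g, hgM⟩, fun x => Subtype.ext ?_⟩
    show ((j ⟨χ x, _⟩ : M) : L') = g * ((j ⟨x, _⟩ : M) : L') * g⁻¹
    rw [hj, hj]
    exact key x
  · -- elements of `M` act on `U` through `N₂`
    rintro ⟨g, hg⟩
    obtain ⟨s, hs, hgs⟩ := (hMdef g).1 hg
    obtain ⟨α, hαv, hαJ⟩ : ∃ α : U →* Ω, ∃ hv : ∀ x, α x ∈ normalizerIn S U,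
        ∀ x, J ⟨α x, hv x⟩ = g * J ⟨x, hUN x.2⟩ * g⁻¹ := by
      let c : U →* J.range :=
        ((MulAut.conj g).toMonoidHom.comp (J.comp (Subgroup.inclusion hUN))).codRestrict
          J.range (fun x => by
            obtain ⟨r', -, hr''⟩ := hJR g ⟨x, hUN x.2⟩ x.2
            exact ⟨r', hr''⟩)
      exact ⟨(invOnRange J hJinj).comp c, fun x => invOnRange_mem J hJinj _,
        fun x => apply_invOnRange J hJinj (c x)⟩
    have hαU : ∀ x, α x ∈ U := by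
      intro x
      obtain ⟨r', hr', hr''⟩ := hJR g ⟨x, hUN x.2⟩ x.2
      have h1 := hJinj (hr''.trans (hαJ x).symm)
      have h2 : (r' : Ω) = α x := congrArg (fun s : ↥(normalizerIn S U) => (s : Ω)) h1
      rw [← h2]
      exact hr'
    obtain ⟨β, hβ, hβS, hβι⟩ := realized_exists_hom hr' hU'N g (by
      intro x
      have h1 : ι' ⟨x, hU'N x.2⟩ ∈ imageAlong ι' U' := mem_imageAlong.2 ⟨_, x.2, rfl⟩
      obtain ⟨y, -, hy⟩ := mem_imageAlong.1 (hRLn.conj_mem _ h1 g)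
      exact ⟨y, hy⟩)
    have hβF : β ∈ F.Hom U' := by
      rw [hN'] at hβ
      exact hβ.1
    have hαF : α ∈ F.Hom U := mem_of_pull F hφ hUN hαv hβF
      (fun x => hφR.le ⟨⟨x, hUN x.2⟩, x.2, rfl⟩) (fun x => by
        have h1 := hβι ⟨φ ⟨x, hUN x.2⟩, hφR.le ⟨⟨x, hUN x.2⟩, x.2, rfl⟩⟩
        have h2 := hαJ x
        rw [hJ, hJ] at h2
        exact congrArg Subtype.val (hr'.1 (h1.trans h2.symm)))
    obtain ⟨a, ha, ha'⟩ := hconj s hs
    have hαE : α ∈ E.Hom U := by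
      rw [hE]
      refine Cfsg.Agent.Lib.Helper2.mem_kSystem_of_le F Q _ hQ.1 hconj hαF hQU ⟨a, ha, fun q => ?_⟩
      rw [← ha' q]
      have h1 := (hαJ ⟨q, hQU q.2⟩).trans (hgs q q.2)
      exact congrArg (fun s : ↥(normalizerIn S U) => (s : Ω)) (hJinj h1)
    have hαN : α ∈ N₂.Hom U := by
      rw [hN₂]
      exact mem_normalizerHom_of_le E le_rfl hUN hαE (fun x _ => hαU x)
    refine ⟨α, hαN, fun q => Subtype.ext ?_⟩
    show ((j ⟨α q, _⟩ : M) : L') = g * ((j ⟨q, _⟩ : M) : L') * g⁻¹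
    rw [hj, hj]
    exact hαJ q
  · intro k hk q
    rw [Subgroup.mem_bot.1 hk, one_mul, mul_one]
  · intro s hs
    apply hjinj
    rw [Subgroup.mem_bot.1 hs, map_one]
  · rintro ⟨c, hcM⟩ hc
    have hcB : c ∈ Subgroup.centralizer ((imageAlong ι' U' : Subgroup L') : Set L') := by
      rw [Subgroup.mem_centralizer_iff]
      intro y hy
      obtain ⟨y', hy', rfl⟩ := mem_imageAlong.1 hy
      obtain ⟨r, hr, hry⟩ := hφR.ge hy'
      have h1 : c * ((j ⟨r, hUN hr⟩ : M) : L') = ((j ⟨r, hUN hr⟩ : M) : L') * c :=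
        congrArg Subtype.val (hc ⟨r, hr⟩)
      rw [hj, hJ] at h1
      have h2 : (⟨φ ⟨(r : Ω), hUN hr⟩, hφN _⟩ : ↥(normalizerIn S U')) = y' := Subtype.ext hry
      rw [h2] at h1
      exact h1.symm
    obtain ⟨y', hy', hy''⟩ := mem_imageAlong.1 (hcenB hcB)
    obtain ⟨r, hr, hry⟩ := hφR.ge hy'
    have hcJ : c = J r := by
      rw [hJ, ← hy'']
      exact congrArg ι' (Subtype.ext hry.symm)
    refine ⟨r⁻¹, ⟨(r⁻¹).2, ?_⟩, ?_⟩
    · show ((r⁻¹ : ↥(normalizerIn S U)) : Ω) ∈ Subgroup.centralizer (U : Set Ω)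
      rw [Subgroup.mem_centralizer_iff]
      intro u hu
      have h1 : c * ((j ⟨u, hUN hu⟩ : M) : L') = ((j ⟨u, hUN hu⟩ : M) : L') * c :=
        congrArg Subtype.val (hc ⟨u, hu⟩)
      rw [hj, hcJ, ← map_mul, ← map_mul] at h1
      have h2 : (r : Ω) * u = u * r :=
        congrArg (fun s : ↥(normalizerIn S U) => (s : Ω)) (hJinj h1)
      show u * (r : Ω)⁻¹ = (r : Ω)⁻¹ * u
      rw [eq_inv_mul_iff_mul_eq, ← mul_assoc, h2, mul_inv_cancel_right]
    · rw [Subgroup.mem_bot]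
      apply Subtype.ext
      show c * ((j r⁻¹ : M) : L') = 1
      rw [hj, hcJ, ← map_mul, mul_inv_cancel, map_one]

/-- **`S C_F(Q)` is `H`-free when `F` is** (`Q` normal in `F`). -/
theorem sectionFree_kSystem_inn [Finite S] {p : ℕ} [Fact p.Prime] (hS : IsPGroup p S)
    {F : FusionSystem S} (hF : F.IsSaturated p) (H : Type*) [Group H]
    (hfree : F.IsSectionFree p H) {Q : Subgroup Ω} (hQ : F.IsNormal Q)
    (hconj : ∀ g ∈ S, ∃ a ∈ autInducedBy S Q, ∀ x : Q, g * (x : Ω) * g⁻¹ = (a x : Q)) :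
    (kSystem F Q (autInducedBy S Q) hQ.1 hconj).IsSectionFree p H := by
  have hEsat : (kSystem F Q (autInducedBy S Q) hQ.1 hconj).IsSaturated p :=
    Cfsg.Agent.Lib.Helper2.kSystem_inn_saturated hS hF hQ.1 (normal_le_normalizer hQ)
  have hQE : (kSystem F Q (autInducedBy S Q) hQ.1 hconj).IsNormal Q :=
    Cfsg.Agent.Lib.Helper2.kSystem_isNormal F Q _ hQ.1 hconj
  apply sectionFree_of_radical hS hEsat
  intro U hUfn hUc hUr N₂ hN₂ L _ ι hM
  have hQU : Q ≤ U := normal_le_centric_radical hS hQE hUc hUr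
  have hUS : U ≤ S := hUc.1
  have hUcF : F.IsCentric U := centric_of_centric_kSystem hF hQ hconj hQU hUc
  obtain ⟨U', hconjU, hU'fn⟩ := exists_fullyNormalized F hUS
  have hU'c : F.IsCentric U' := centric_of_isConj_ff hUcF hconjU
  obtain ⟨N', hN'⟩ := Cfsg.Agent.S5096.result F U' hU'fn.1
  have hfinN' : Finite ↥(normalizerIn S U') := finite_of_le (normalizerIn_le S U')
  obtain ⟨L', _, ι', hM'⟩ := Cfsg.Agent.S5090.result p (hS.to_le (normalizerIn_le S U')) N'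
    (constrained_normalizerSystem hS hF hU'fn hU'c hN')
  have hfree' : ¬ Involves H L' := hfree U' hU'fn hU'c N' hN' L' ι' hM'
  have hfinT : Finite ↥(normalizerIn S U) := finite_of_le (normalizerIn_le S U)
  have hST : IsPGroup p ↥(normalizerIn S U) := hS.to_le (normalizerIn_le S U)
  obtain ⟨M, j, hMj⟩ := exists_submodel_inn hS hF hQ hconj rfl hEsat hQU hUfn hUc hN₂ hU'fn hU'c
    hconjU N' hN' ι' hM'
  obtain ⟨e, -⟩ := model_unique hST hM hMj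
  intro hinv
  exact hfree' (Cfsg.Agent.Lib.Helper33.involves_subgroup M
    (Cfsg.Agent.Lib.Helper33.involves_quotient ⊥ (involves_congr e hinv)))

end Cfsg.Agent.Lib.Helper88
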