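import Mathlib
import Cfsg.Prelude.Def_OddOrderLocal

set_option autoImplicit false

namespace Cfsg.Agent.Lib.Helper88.MC

theorem card_dvd_of_cyclic_of_exp {Y : Type*} [Group Y] [IsCyclic Y] (p : ℕ)
    (h : ∀ y : Y, y ^ p = 1) : Nat.card Y ∣ p := by
  obtain ⟨g, hg⟩ := IsCyclic.exists_generator (α := Y)
  rw [← orderOf_eq_card_of_forall_mem_zpowers hg]
  exact orderOf_dvd_of_pow_eq_one (h g)

/-- in a metacyclic group, a finite subgroup of exponent `p` has order dividing `p ^ 2`. -/
theorem card_dvd_sq_of_metacyclic {Y : Type*} [Group Y] (hm : Cfsg.IsMetacyclic Y) (p : ℕ)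
    (E : Subgroup Y) (hE : ∀ y ∈ E, y ^ p = 1) : Nat.card E ∣ p * p := by
  obtain ⟨N, hN, hc, hq⟩ := hm
  let φ : E →* Y ⧸ N := (QuotientGroup.mk' N).comp E.subtype
  have h1 := Subgroup.card_eq_card_quotient_mul_card_subgroup φ.ker
  rw [Nat.card_congr (QuotientGroup.quotientKerEquivRange φ).toEquiv] at h1
  rw [h1]
  apply Nat.mul_dvd_mul
  · have : IsCyclic φ.range := Subgroup.isCyclic _
    apply card_dvd_of_cyclic_of_exp
    rintro ⟨_, x, rfl⟩
    apply Subtype.ext
    show (φ x) ^ p = 1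
    rw [← map_pow]
    have : x ^ p = 1 := Subtype.ext (hE x x.2)
    rw [this, map_one]
  · let ψ : φ.ker →* N :=
      { toFun := fun x => ⟨((x : E) : Y), (QuotientGroup.eq_one_iff _).mp x.2⟩
        map_one' := rfl
        map_mul' := fun _ _ => rfl }
    have hψ : Function.Injective ψ := by
      intro a b hab
      have h3 : ((ψ a : N) : Y) = ((ψ b : N) : Y) := congrArg Subtype.val hab
      exact Subtype.ext (Subtype.ext h3)
    have : IsCyclic φ.ker := isCyclic_of_injective ψ hψ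
    apply card_dvd_of_cyclic_of_exp
    intro x
    exact Subtype.ext (Subtype.ext (hE x x.1.2))

theorem isMetacyclic_of_mulEquiv {X Y : Type*} [Group X] [Group Y] (e : X ≃* Y)
    (h : Cfsg.IsMetacyclic X) : Cfsg.IsMetacyclic Y := by
  obtain ⟨N, hN, hc, hq⟩ := h
  have hN' : (N.map e.toMonoidHom).Normal := hN.map _ e.surjective
  refine ⟨N.map e.toMonoidHom, hN', ?_, ?_⟩
  · exact isCyclic_of_surjective (e.subgroupMap N) (e.subgroupMap N).surjective
  · let f := QuotientGroup.congr N (N.map e.toMonoidHom) e rfl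
    exact isCyclic_of_surjective f f.surjective

theorem pow_eq_one_of_mem_zpowers {Y : Type*} [Group Y] {c x : Y} {p : ℕ} (hc : c ^ p = 1)
    (hx : x ∈ Subgroup.zpowers c) : x ^ p = 1 := by
  obtain ⟨j, rfl⟩ := hx
  show (c ^ j) ^ p = 1
  rw [← zpow_natCast, ← zpow_mul, mul_comm, zpow_mul, zpow_natCast, hc, one_zpow]

/-- MC-A -/
theorem homocyclic_of_metacyclic {p : ℕ} [Fact p.Prime] {X : Type*} [Group X] [Finite X]
    (hX : IsPGroup p X) (hm : Cfsg.IsMetacyclic X) (n : ℕ) (hn : 0 < n) (H : Type) [CommGroup H]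
    (e : X ≃* (Multiplicative (ZMod (p ^ n)) × Multiplicative (ZMod (p ^ n))) × H) :
    Nonempty (X ≃* Multiplicative (ZMod (p ^ n)) × Multiplicative (ZMod (p ^ n))) := by
  have hpp : p.Prime := Fact.out
  have : NeZero (p ^ n) := ⟨pow_ne_zero _ hpp.ne_zero⟩
  have hfinH : Finite H := by
    apply Finite.of_injective (fun k : H => e.symm (1, k))
    intro a b h
    exact (Prod.ext_iff.1 (e.symm.injective h)).2
  have hcardC : Nat.card (Multiplicative (ZMod (p ^ n))) = p ^ n := by
    rw [Nat.card_eq_fintype_card, Fintype.card_multiplicative, ZMod.card]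
  by_cases hH : Subsingleton H
  · have : Unique H := ⟨⟨1⟩, fun a => Subsingleton.elim _ _⟩
    exact ⟨e.trans MulEquiv.prodUnique⟩
  · exfalso
    rw [not_subsingleton_iff_nontrivial] at hH
    obtain ⟨k, hk⟩ := hX.exists_card_eq
    have hcard : Nat.card X = p ^ n * p ^ n * Nat.card H := by
      rw [Nat.card_congr e.toEquiv, Nat.card_prod, Nat.card_prod, hcardC]
    have hdH : Nat.card H ∣ p ^ k := ⟨p ^ n * p ^ n, by rw [← hk, hcard, mul_comm]⟩
    obtain ⟨j, -, hj⟩ := (Nat.dvd_prime_pow hpp).1 hdH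
    have hj0 : j ≠ 0 := by
      rintro rfl
      rw [pow_zero] at hj
      have := Finite.one_lt_card (α := H)
      omega
    have hpH : p ∣ Nat.card H := by rw [hj]; exact dvd_pow_self p hj0
    have hpC : p ∣ Nat.card (Multiplicative (ZMod (p ^ n))) := by
      rw [hcardC]; exact dvd_pow_self p hn.ne'
    obtain ⟨c, hc⟩ := exists_prime_orderOf_dvd_card' p hpC
    obtain ⟨h, hh⟩ := exists_prime_orderOf_dvd_card' p hpH
    have hc1 : c ^ p = 1 := by
      have := pow_orderOf_eq_one c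
      rwa [hc] at this
    have hh1 : h ^ p = 1 := by
      have := pow_orderOf_eq_one h
      rwa [hh] at this
    let E : Subgroup ((Multiplicative (ZMod (p ^ n)) × Multiplicative (ZMod (p ^ n))) × H) :=
      ((Subgroup.zpowers c).prod (Subgroup.zpowers c)).prod (Subgroup.zpowers h)
    have hEcard : Nat.card E = p * p * p := by
      rw [Nat.card_congr (Subgroup.prodEquiv _ _).toEquiv, Nat.card_prod,
        Nat.card_congr (Subgroup.prodEquiv _ _).toEquiv, Nat.card_prod, Nat.card_zpowers,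
        Nat.card_zpowers, hc, hh]
    have hE : ∀ y ∈ E, y ^ p = 1 := by
      rintro ⟨⟨a, b⟩, l⟩ ⟨⟨ha, hb⟩, hl⟩
      exact Prod.ext (Prod.ext (pow_eq_one_of_mem_zpowers hc1 ha)
        (pow_eq_one_of_mem_zpowers hc1 hb)) (pow_eq_one_of_mem_zpowers hh1 hl)
    have hdvd := card_dvd_sq_of_metacyclic (isMetacyclic_of_mulEquiv e hm) p E hE
    rw [hEcard] at hdvd
    have hle := Nat.le_of_dvd (Nat.mul_pos hpp.pos hpp.pos) hdvd
    have h2 := hpp.two_le
    nlinarith [Nat.mul_pos hpp.pos hpp.pos]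

end Cfsg.Agent.Lib.Helper88.MC
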