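import Mathlib

set_option autoImplicit false

namespace Cfsg.Agent.Lib.Helper88.MC

/-- MC-D1 -/
theorem quaternion_to_dihedral (n : ℕ) [NeZero n] :
    ∃ f : QuaternionGroup n →* DihedralGroup n, Function.Surjective f ∧ Nat.card f.ker = 2 := by
  let c : ZMod (2 * n) →+* ZMod n := ZMod.castHom (Dvd.intro_left 2 rfl) (ZMod n)
  have hcn : c (n : ZMod (2 * n)) = 0 := by
    rw [map_natCast]; exact ZMod.natCast_self n
  let f0 : QuaternionGroup n → DihedralGroup n := fun x =>
    match x with
    | QuaternionGroup.a i => DihedralGroup.r (c i)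
    | QuaternionGroup.xa i => DihedralGroup.sr (c i)
  let f : QuaternionGroup n →* DihedralGroup n :=
    { toFun := f0
      map_one' := by
        show DihedralGroup.r (c 0) = 1
        rw [map_zero]; rfl
      map_mul' := by
        rintro (i | i) (j | j)
        · show DihedralGroup.r (c (i + j)) = DihedralGroup.r (c i) * DihedralGroup.r (c j)
          rw [map_add]; rfl
        · show DihedralGroup.sr (c (j - i)) = DihedralGroup.r (c i) * DihedralGroup.sr (c j)
          rw [map_sub]; rfl
        · show DihedralGroup.sr (c (i + j)) = DihedralGroup.sr (c i) * DihedralGroup.r (c j)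
          rw [map_add]; rfl
        · show DihedralGroup.r (c (n + j - i)) = DihedralGroup.sr (c i) * DihedralGroup.sr (c j)
          rw [map_sub, map_add, hcn, zero_add]; rfl }
  have hc : Function.Surjective c := ZMod.castHom_surjective _
  have hf : Function.Surjective f := by
    rintro (i | i)
    · obtain ⟨j, rfl⟩ := hc i
      exact ⟨QuaternionGroup.a j, rfl⟩
    · obtain ⟨j, rfl⟩ := hc i
      exact ⟨QuaternionGroup.xa j, rfl⟩
  refine ⟨f, hf, ?_⟩
  have h1 := Subgroup.card_eq_card_quotient_mul_card_subgroup f.ker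
  rw [Nat.card_congr (QuotientGroup.quotientKerEquivOfSurjective f hf).toEquiv,
    DihedralGroup.nat_card, Nat.card_eq_fintype_card, QuaternionGroup.card] at h1
  have hn : 0 < n := Nat.pos_of_ne_zero (NeZero.ne n)
  have h2 : 2 * n * 2 = 2 * n * Nat.card f.ker := by rw [← h1]; ring
  exact (Nat.eq_of_mul_eq_mul_left (by positivity) h2).symm

/-- MC-D3 -/
theorem sylow_quotient_iso {L : Type*} [Group L] [Finite L] (T : Sylow 2 L) (Z : Subgroup L)
    [Z.Normal] {D : Type*} [Group D] (f : (T : Subgroup L) →* D) (hf : Function.Surjective f)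
    (hker : f.ker = Z.subgroupOf (T : Subgroup L)) :
    ∃ T' : Sylow 2 (L ⧸ Z), Nonempty ((T' : Subgroup (L ⧸ Z)) ≃* D) := by
  have : Fact (Nat.Prime 2) := ⟨Nat.prime_two⟩
  let T' : Sylow 2 (L ⧸ Z) := T.mapSurjective (QuotientGroup.mk'_surjective Z)
  have hT' : (T' : Subgroup (L ⧸ Z)) = (T : Subgroup L).map (QuotientGroup.mk' Z) := rfl
  let g : (T : Subgroup L) →* (T' : Subgroup (L ⧸ Z)) :=
    ((QuotientGroup.mk' Z).comp (T : Subgroup L).subtype).codRestrict _ (fun x => by
      rw [hT']; exact ⟨x, x.2, rfl⟩)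
  have hg : Function.Surjective g := by
    rintro ⟨y, hy⟩
    rw [hT'] at hy
    obtain ⟨x, hx, rfl⟩ := hy
    exact ⟨⟨x, hx⟩, rfl⟩
  have hgk : g.ker = f.ker := by
    rw [hker]
    ext x
    rw [MonoidHom.mem_ker, Subgroup.mem_subgroupOf, ← QuotientGroup.eq_one_iff]
    constructor
    · intro h
      exact congrArg Subtype.val h
    · intro h
      exact Subtype.ext h
  refine ⟨T', ⟨?_⟩⟩
  exact (QuotientGroup.quotientKerEquivOfSurjective g hg).symm.trans
    ((QuotientGroup.quotientMulEquivOfEq hgk).trans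
      (QuotientGroup.quotientKerEquivOfSurjective f hf))

end Cfsg.Agent.Lib.Helper88.MC
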