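import Mathlib

set_option autoImplicit false

namespace Cfsg.Agent.Lib.Helper88.MC

/-- MC-N -/
theorem no_normal_complement {G : Type*} [Group G] [Finite G] (T : Sylow 2 G) (u v : G) (m : ℕ)
    (hm : Odd m) (hu : u ^ m = 1) (hv : v ^ m = 1) (hw4 : (u * v * u) ^ 4 = 1)
    (hw : u * v * u ≠ 1) :
    ¬ ∃ N : Subgroup G, N.Normal ∧ N.IsComplement' (T : Subgroup G) := by
  rintro ⟨N, hN, hc⟩
  have : Fact (Nat.Prime 2) := ⟨Nat.prime_two⟩
  have hcard : Nat.card N * Nat.card (T : Subgroup G) = Nat.card G := hc.card_mul_card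
  have hidx : N.index = Nat.card (T : Subgroup G) := by
    have h1 := N.card_mul_index
    rw [← hcard] at h1
    exact Nat.eq_of_mul_eq_mul_left Nat.card_pos h1
  have hNodd : Nat.card N = (T : Subgroup G).index := by
    have h1 := (T : Subgroup G).card_mul_index
    rw [← hcard, mul_comm] at h1
    exact (Nat.eq_of_mul_eq_mul_right Nat.card_pos h1).symm
  have hNodd' : ¬ 2 ∣ Nat.card N := by
    rw [hNodd]; exact T.not_dvd_index
  obtain ⟨a, ha⟩ := T.isPGroup'.exists_card_eq
  have key : ∀ x : G, x ^ m = 1 → x ∈ N := by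
    intro x hx
    rw [← QuotientGroup.eq_one_iff]
    have h1 : (x : G ⧸ N) ^ m = 1 := by rw [← QuotientGroup.mk_pow, hx]; rfl
    have h2 : (x : G ⧸ N) ^ (2 ^ a) = 1 := by
      have : Nat.card (G ⧸ N) = 2 ^ a := by rw [← ha, ← hidx]; rfl
      rw [← this]; exact pow_card_eq_one'
    have hcop : Nat.Coprime m (2 ^ a) := Nat.Coprime.pow_right a ((Nat.coprime_two_right).mpr hm)
    have h3 := pow_gcd_eq_one.mpr ⟨h1, h2⟩
    rwa [hcop.gcd_eq_one, pow_one] at h3
  have hwN : u * v * u ∈ N := N.mul_mem (N.mul_mem (key u hu) (key v hv)) (key u hu)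
  have h5 : (u * v * u) ^ Nat.card N = 1 := by
    have := pow_card_eq_one' (x := (⟨u * v * u, hwN⟩ : N))
    have h := congrArg Subtype.val this
    simp only [SubmonoidClass.coe_pow, Subgroup.coe_one] at h
    exact h
  have hcop : Nat.Coprime (Nat.card N) 4 := by
    have : Nat.Coprime (Nat.card N) 2 := ((Nat.Prime.coprime_iff_not_dvd Nat.prime_two).mpr hNodd').symm
    exact Nat.Coprime.pow_right 2 this
  have h6 := pow_gcd_eq_one.mpr ⟨h5, hw4⟩
  rw [hcop.gcd_eq_one, pow_one] at h6
  exact hw h6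

/-- MC-W -/
theorem sl2_witness {F : Type*} [Field F] [Fintype F] (hF : Odd (Fintype.card F)) :
    ∃ u v : Matrix.SpecialLinearGroup (Fin 2) F, u ^ Fintype.card F = 1 ∧ v ^ Fintype.card F = 1 ∧
      (u * v * u) ^ 4 = 1 ∧ u * v * u ≠ 1 ∧ u * v * u ≠ -1 := by
  let u : Matrix.SpecialLinearGroup (Fin 2) F := ⟨!![1, 1; 0, 1], by simp [Matrix.det_fin_two]⟩
  let v : Matrix.SpecialLinearGroup (Fin 2) F := ⟨!![1, 0; -1, 1], by simp [Matrix.det_fin_two]⟩
  have hu : ∀ n : ℕ, ((u ^ n : Matrix.SpecialLinearGroup (Fin 2) F) : Matrix (Fin 2) (Fin 2) F)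
      = !![1, (n : F); 0, 1] := by
    intro n
    induction n with
    | zero => ext i j; fin_cases i <;> fin_cases j <;> simp
    | succ n ih =>
      rw [pow_succ, Matrix.SpecialLinearGroup.coe_mul, ih]
      ext i j; fin_cases i <;> fin_cases j <;> simp [u, Matrix.mul_apply, Fin.sum_univ_two]
      ring
  have hv : ∀ n : ℕ, ((v ^ n : Matrix.SpecialLinearGroup (Fin 2) F) : Matrix (Fin 2) (Fin 2) F)
      = !![1, 0; -(n : F), 1] := by
    intro n
    induction n with
    | zero => ext i j; fin_cases i <;> fin_cases j <;> simp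
    | succ n ih =>
      rw [pow_succ, Matrix.SpecialLinearGroup.coe_mul, ih]
      ext i j; fin_cases i <;> fin_cases j <;> simp [v, Matrix.mul_apply, Fin.sum_univ_two]
      ring
  have hw : ((u * v * u : Matrix.SpecialLinearGroup (Fin 2) F) : Matrix (Fin 2) (Fin 2) F)
      = !![0, 1; -1, 0] := by
    rw [Matrix.SpecialLinearGroup.coe_mul, Matrix.SpecialLinearGroup.coe_mul]
    ext i j; fin_cases i <;> fin_cases j <;> simp [u, v, Matrix.mul_apply, Fin.sum_univ_two]
  refine ⟨u, v, ?_, ?_, ?_, ?_, ?_⟩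
  · apply Subtype.ext
    rw [hu, Nat.cast_card_eq_zero]
    ext i j; fin_cases i <;> fin_cases j <;> simp
  · apply Subtype.ext
    rw [hv, Nat.cast_card_eq_zero]
    ext i j; fin_cases i <;> fin_cases j <;> simp
  · apply Subtype.ext
    rw [Matrix.SpecialLinearGroup.coe_pow, hw]
    ext i j; fin_cases i <;> fin_cases j <;>
      simp [pow_succ, Matrix.mul_apply, Fin.sum_univ_two]
  · intro h
    have h1 := congrArg (fun M : Matrix.SpecialLinearGroup (Fin 2) F => (M : Matrix (Fin 2) (Fin 2) F) 0 0) h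
    simp only [hw] at h1
    simp at h1
  · intro h
    have h1 := congrArg (fun M : Matrix.SpecialLinearGroup (Fin 2) F => (M : Matrix (Fin 2) (Fin 2) F) 0 0) h
    simp only [hw] at h1
    simp at h1

/-- MC-D2 -/
theorem sl2_involution {F : Type*} [Field F] (h2 : (2 : F) ≠ 0)
    (t : Matrix.SpecialLinearGroup (Fin 2) F) (ht : t * t = 1) (ht1 : t ≠ 1) : t = -1 := by
  have hdet : (t : Matrix (Fin 2) (Fin 2) F) 0 0 * (t : Matrix (Fin 2) (Fin 2) F) 1 1
      - (t : Matrix (Fin 2) (Fin 2) F) 0 1 * (t : Matrix (Fin 2) (Fin 2) F) 1 0 = 1 := by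
    have := t.2
    rwa [Matrix.det_fin_two] at this
  have hM : (t : Matrix (Fin 2) (Fin 2) F) * (t : Matrix (Fin 2) (Fin 2) F) = 1 := by
    rw [← Matrix.SpecialLinearGroup.coe_mul, ht]; rfl
  set a := (t : Matrix (Fin 2) (Fin 2) F) 0 0 with ha
  set b := (t : Matrix (Fin 2) (Fin 2) F) 0 1 with hb
  set c := (t : Matrix (Fin 2) (Fin 2) F) 1 0 with hc
  set d := (t : Matrix (Fin 2) (Fin 2) F) 1 1 with hd
  have e00 : a * a + b * c = 1 := by
    have := congrFun (congrFun hM 0) 0
    simpa [Matrix.mul_apply, Fin.sum_univ_two] using this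
  have e01 : a * b + b * d = 0 := by
    have := congrFun (congrFun hM 0) 1
    simpa [Matrix.mul_apply, Fin.sum_univ_two] using this
  have e10 : c * a + d * c = 0 := by
    have := congrFun (congrFun hM 1) 0
    simpa [Matrix.mul_apply, Fin.sum_univ_two] using this
  have e11 : c * b + d * d = 1 := by
    have := congrFun (congrFun hM 1) 1
    simpa [Matrix.mul_apply, Fin.sum_univ_two] using this
  have hs : a + d ≠ 0 := by
    intro hs
    apply h2
    have hd' : d = -a := by linear_combination hs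
    rw [hd'] at hdet
    linear_combination -e00 - hdet
  have hb0 : b = 0 := by
    have : b * (a + d) = 0 := by linear_combination e01
    exact (mul_eq_zero.mp this).resolve_right hs
  have hc0 : c = 0 := by
    have : c * (a + d) = 0 := by linear_combination e10
    exact (mul_eq_zero.mp this).resolve_right hs
  have had : a = d := by
    have h1 : (a - d) * (a + d) = 0 := by linear_combination e00 - e11
    exact sub_eq_zero.mp ((mul_eq_zero.mp h1).resolve_right hs)
  have haa : (a - 1) * (a + 1) = 0 := by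
    rw [hb0] at e00
    linear_combination e00
  rcases mul_eq_zero.mp haa with h | h
  · exfalso
    apply ht1
    apply Subtype.ext
    have ha1 : a = 1 := sub_eq_zero.mp h
    ext i j
    fin_cases i <;> fin_cases j
    · exact ha1
    · exact hb0
    · exact hc0
    · show d = 1
      rw [← had, ha1]
  · apply Subtype.ext
    have ha1 : a = -1 := by linear_combination h
    ext i j
    fin_cases i <;> fin_cases j
    · simpa using ha1
    · simpa using hb0
    · simpa using hc0
    · show d = _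
      rw [← had, ha1]
      simp

end Cfsg.Agent.Lib.Helper88.MC
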