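import Cfsg.Agent.Lib.Helper88.MCQ0
import Cfsg.Agent.Lib.Helper88.MCN
import Cfsg.Agent.Lib.Helper88.MCD1

set_option autoImplicit false

namespace Cfsg.Agent.Lib.Helper88.MC

theorem mem_zpowers_neg_one {F : Type*} [Field F] (x : Matrix.SpecialLinearGroup (Fin 2) F) :
    x ∈ Subgroup.zpowers (-1 : Matrix.SpecialLinearGroup (Fin 2) F) ↔ x = 1 ∨ x = -1 := by
  have hsq : (-1 : Matrix.SpecialLinearGroup (Fin 2) F) * (-1) = 1 := by
    rw [neg_mul_neg, one_mul]
  constructor
  · rintro ⟨j, rfl⟩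
    rcases Int.even_or_odd' j with ⟨c, rfl | rfl⟩
    · left
      show (-1 : Matrix.SpecialLinearGroup (Fin 2) F) ^ (2 * c) = 1
      rw [zpow_mul, zpow_two, hsq, one_zpow]
    · right
      show (-1 : Matrix.SpecialLinearGroup (Fin 2) F) ^ (2 * c + 1) = -1
      rw [zpow_add, zpow_mul, zpow_two, hsq, one_zpow, one_mul, zpow_one]
  · rintro (rfl | rfl)
    · exact Subgroup.one_mem _
    · exact Subgroup.mem_zpowers _

/-- MC-D -/
theorem model_dihedral (k : ℕ) (hk : 1 ≤ k) :
    ∃ (G : Type) (_ : Group G) (_ : Finite G) (T : Sylow 2 G),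
      Nonempty ((T : Subgroup G) ≃* DihedralGroup (2 ^ k)) ∧
      ¬ ∃ N : Subgroup G, N.Normal ∧ N.IsComplement' (T : Subgroup G) := by
  obtain ⟨F, _, _, hodd, hT⟩ := sl2_sylow_quaternion k hk
  obtain ⟨u, v, hu, hv, hw4, hw1, hw2⟩ := sl2_witness hodd
  have h2 : (2 : F) ≠ 0 := by
    apply Ring.two_ne_zero
    intro h
    rw [FiniteField.even_card_iff_char_two] at h
    rw [Nat.odd_iff] at hodd
    omega
  have hfin : Finite (Matrix.SpecialLinearGroup (Fin 2) F) := inferInstance
  let T : Sylow 2 (Matrix.SpecialLinearGroup (Fin 2) F) := default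
  obtain ⟨e⟩ := hT T
  have : NeZero (2 ^ k) := ⟨by positivity⟩
  obtain ⟨f0, hf0, hk0⟩ := quaternion_to_dihedral (2 ^ k)
  let Z : Subgroup (Matrix.SpecialLinearGroup (Fin 2) F) := Subgroup.zpowers (-1)
  have hZn : Z.Normal := by
    constructor
    intro x hx g
    rw [mem_zpowers_neg_one] at hx ⊢
    rcases hx with rfl | rfl
    · left; simp
    · right
      rw [mul_neg_one, neg_mul, mul_inv_cancel]
  let f : (T : Subgroup (Matrix.SpecialLinearGroup (Fin 2) F)) →* DihedralGroup (2 ^ k) :=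
    f0.comp e.toMonoidHom
  have hf : Function.Surjective f := hf0.comp e.surjective
  have hkf : Nat.card f.ker = 2 := by
    have h1 := Subgroup.card_eq_card_quotient_mul_card_subgroup f.ker
    rw [Nat.card_congr (QuotientGroup.quotientKerEquivOfSurjective f hf).toEquiv,
      DihedralGroup.nat_card, Nat.card_congr e.toEquiv, quat_natCard'] at h1
    have h3 : 2 * 2 ^ k * 2 = 2 * 2 ^ k * Nat.card f.ker := by rw [← h1]; ring
    exact (Nat.eq_of_mul_eq_mul_left (by positivity) h3).symm
  have hinv : ∀ x ∈ f.ker, x ≠ 1 →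
      ((x : (T : Subgroup (Matrix.SpecialLinearGroup (Fin 2) F))) :
        Matrix.SpecialLinearGroup (Fin 2) F) = -1 := by
    intro x hx hx1
    apply sl2_involution h2
    · have h3 := pow_card_eq_one' (x := (⟨x, hx⟩ : f.ker))
      rw [hkf, pow_two] at h3
      have h4 := congrArg (fun y : f.ker =>
        (((y : (T : Subgroup (Matrix.SpecialLinearGroup (Fin 2) F)))) :
          Matrix.SpecialLinearGroup (Fin 2) F)) h3
      exact h4
    · intro h
      exact hx1 (Subtype.ext h)
  have hex : ∃ t ∈ f.ker, t ≠ 1 := by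
    by_contra hcon
    push Not at hcon
    have : f.ker = ⊥ := (Subgroup.eq_bot_iff_forall _).mpr hcon
    rw [this, Subgroup.card_bot] at hkf
    omega
  obtain ⟨t, ht, ht1⟩ := hex
  have htv := hinv t ht ht1
  have hker : f.ker = Z.subgroupOf (T : Subgroup (Matrix.SpecialLinearGroup (Fin 2) F)) := by
    ext x
    rw [Subgroup.mem_subgroupOf, mem_zpowers_neg_one]
    constructor
    · intro hx
      by_cases hx1 : x = 1
      · left; rw [hx1]; rfl
      · right; exact hinv x hx hx1
    · rintro (h | h)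
      · have : x = 1 := Subtype.ext h
        rw [this]; exact Subgroup.one_mem _
      · have : x = t := Subtype.ext (h.trans htv.symm)
        rw [this]; exact ht
  obtain ⟨T', hT'⟩ := sylow_quotient_iso T Z f hf hker
  have hfin' : Finite (Matrix.SpecialLinearGroup (Fin 2) F ⧸ Z) := inferInstance
  refine ⟨Matrix.SpecialLinearGroup (Fin 2) F ⧸ Z, inferInstance, hfin', T', hT',
    no_normal_complement T' (QuotientGroup.mk' Z u) (QuotientGroup.mk' Z v) _ hodd ?_ ?_ ?_ ?_⟩
  · rw [← map_pow, hu, map_one]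
  · rw [← map_pow, hv, map_one]
  · rw [← map_mul, ← map_mul, ← map_pow, hw4, map_one]
  · rw [← map_mul, ← map_mul]
    intro h
    have h3 : u * v * u ∈ Z := (QuotientGroup.eq_one_iff _).mp h
    rw [mem_zpowers_neg_one] at h3
    rcases h3 with h3 | h3
    · exact hw1 h3
    · exact hw2 h3

end Cfsg.Agent.Lib.Helper88.MC
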