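import Cfsg.Agent.Lib.Helper88.MCQ0
import Cfsg.Agent.Lib.Helper88.MCN

set_option autoImplicit false

namespace Cfsg.Agent.Lib.Helper88.MC

/-- MC-Q -/
theorem model_quaternion (k : ℕ) (hk : 1 ≤ k) :
    ∃ (G : Type) (_ : Group G) (_ : Finite G) (T : Sylow 2 G),
      Nonempty ((T : Subgroup G) ≃* QuaternionGroup (2 ^ k)) ∧
      ¬ ∃ N : Subgroup G, N.Normal ∧ N.IsComplement' (T : Subgroup G) := by
  obtain ⟨F, _, _, hodd, hT⟩ := sl2_sylow_quaternion k hk
  obtain ⟨u, v, hu, hv, hw4, hw1, -⟩ := sl2_witness hodd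
  have hfin : Finite (Matrix.SpecialLinearGroup (Fin 2) F) := inferInstance
  let T : Sylow 2 (Matrix.SpecialLinearGroup (Fin 2) F) := default
  exact ⟨Matrix.SpecialLinearGroup (Fin 2) F, inferInstance, hfin, T, hT T,
    no_normal_complement T u v _ hodd hu hv hw4 hw1⟩

end Cfsg.Agent.Lib.Helper88.MC
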