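import Cfsg.Agent.S0261
import Cfsg.Agent.Lib.Helper5.LinearCard

set_option autoImplicit false

namespace Cfsg.Agent.Lib.Helper88.MC

theorem val_three_pow (k : ℕ) (hk : 1 ≤ k) : padicValNat 2 (3 ^ 2 ^ k - 1) = k + 2 := by
  have h := padicValNat.pow_two_sub_pow (x := 3) (y := 1) (by norm_num) (by norm_num) (by norm_num)
    (n := 2 ^ k) (by positivity) (by
      obtain ⟨j, rfl⟩ : ∃ j, k = j + 1 := ⟨k - 1, by omega⟩
      rw [pow_succ]; exact even_two.mul_left _)
  have h4 : padicValNat 2 (3 + 1) = 2 := by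
    have : (3 + 1 : ℕ) = 2 ^ 2 := by norm_num
    rw [this, padicValNat.prime_pow]
  have h2 : padicValNat 2 (3 - 1) = 1 := by
    have : (3 - 1 : ℕ) = 2 := by norm_num
    rw [this, padicValNat_self]
  rw [h4, h2, padicValNat.prime_pow, one_pow] at h
  omega

theorem quat_natCard' (n : ℕ) [NeZero n] : Nat.card (QuaternionGroup n) = 4 * n := by
  rw [Nat.card_eq_fintype_card, QuaternionGroup.card]

/-- MC-Q0 -/
theorem sl2_sylow_quaternion (k : ℕ) (hk : 1 ≤ k) :
    ∃ (F : Type) (_ : Field F) (_ : Fintype F), Odd (Fintype.card F) ∧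
      ∀ T : Sylow 2 (Matrix.SpecialLinearGroup (Fin 2) F),
        Nonempty ((T : Subgroup (Matrix.SpecialLinearGroup (Fin 2) F)) ≃* QuaternionGroup (2 ^ k)) := by
  have : Fact (Nat.Prime 3) := ⟨Nat.prime_three⟩
  have : Fact (Nat.Prime 2) := ⟨Nat.prime_two⟩
  have hfin : Finite (GaloisField 3 (2 ^ (k - 1))) := by
    apply Nat.finite_of_card_ne_zero
    rw [GaloisField.card 3 _ (by positivity)]
    positivity
  let inst : Fintype (GaloisField 3 (2 ^ (k - 1))) := Fintype.ofFinite _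
  have hcard : Fintype.card (GaloisField 3 (2 ^ (k - 1))) = 3 ^ 2 ^ (k - 1) := by
    rw [← Nat.card_eq_fintype_card, GaloisField.card 3 _ (by positivity)]
  have hodd : Odd (Fintype.card (GaloisField 3 (2 ^ (k - 1)))) := by
    rw [hcard]; exact Odd.pow (by decide)
  refine ⟨GaloisField 3 (2 ^ (k - 1)), inferInstance, inst, hodd, fun T => ?_⟩
  obtain ⟨k', hk', ⟨e⟩⟩ := Cfsg.Agent.S0261.result hodd T
  have h1 : Nat.card (T : Subgroup (Matrix.SpecialLinearGroup (Fin 2) (GaloisField 3 (2 ^ (k - 1)))))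
      = 4 * 2 ^ k' := by
    rw [Nat.card_congr e.toEquiv, quat_natCard']
  have h2 := T.card_eq_multiplicity
  rw [Cfsg.Agent.Lib.Helper5.card_SL2, hcard] at h2
  have h3 : (3 ^ 2 ^ (k - 1)) ^ 2 = 3 ^ 2 ^ k := by
    rw [← pow_mul, ← pow_succ]
    congr 2
    omega
  have hne : 3 ^ 2 ^ k - 1 ≠ 0 := by
    have : 1 < 3 ^ 2 ^ k := Nat.one_lt_pow (by positivity) (by norm_num)
    omega
  rw [h3, Nat.factorization_mul (by positivity) hne, Finsupp.add_apply,
    Nat.factorization_def _ Nat.prime_two, Nat.factorization_def _ Nat.prime_two,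
    val_three_pow k hk] at h2
  have h4 : padicValNat 2 (3 ^ 2 ^ (k - 1)) = 0 := by
    apply padicValNat.eq_zero_of_not_dvd
    intro h
    have := Nat.Prime.dvd_of_dvd_pow Nat.prime_two h
    omega
  rw [h4, zero_add] at h2
  have h5 : (2 : ℕ) ^ (k' + 2) = 2 ^ (k + 2) := by
    rw [← h2]
    refine Eq.trans ?_ h1.symm
    ring
  have h6 : k' + 2 = k + 2 := Nat.pow_right_injective le_rfl h5
  have h7 : k' = k := by omega
  subst h7
  exact ⟨e⟩

end Cfsg.Agent.Lib.Helper88.MC
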