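import Mathlib

set_option autoImplicit false

namespace Cfsg.Agent.Lib.Helper88.MC

theorem factorization_two_pow_mul_odd (a o : ℕ) (ho : Odd o) :
    (2 ^ a * o).factorization 2 = a := by
  have ho0 : o ≠ 0 := by rintro rfl; simp at ho
  rw [Nat.factorization_mul (by positivity) ho0, Finsupp.add_apply,
    Nat.Prime.factorization_pow Nat.prime_two, Finsupp.single_eq_same,
    Nat.factorization_eq_zero_of_not_dvd (by
      intro h
      exact (Nat.not_even_iff_odd.mpr ho) (even_iff_two_dvd.mpr h)), add_zero]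

/-- MC-S1 -/
theorem exists_prime_qd (n : ℕ) (hn : 3 ≤ n) :
    ∃ q : ℕ, q.Prime ∧ q % 4 = 3 ∧ ((q ^ 2 - 1) * (q ^ 2 - q)).factorization 2 = n + 1 := by
  obtain ⟨m, rfl⟩ : ∃ m, n = m + 3 := ⟨n - 3, by omega⟩
  obtain ⟨P', hP'⟩ : ∃ P', 2 ^ m = P' + 1 := ⟨2 ^ m - 1, by have := Nat.one_le_two_pow (n := m); omega⟩
  have hpow : 2 ^ (m + 3) = 8 * (P' + 1) := by rw [pow_add, hP']; ring
  have hcop : Nat.Coprime (4 * P' + 3) (2 ^ (m + 3)) := by
    apply Nat.Coprime.pow_right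
    rw [Nat.coprime_two_right]
    exact ⟨2 * P' + 1, by ring⟩
  obtain ⟨q, -, hq, hmod⟩ := Nat.forall_exists_prime_gt_and_modEq 0 (q := 2 ^ (m + 3))
    (a := 4 * P' + 3) (by positivity) hcop
  have hlt : 4 * P' + 3 < 2 ^ (m + 3) := by rw [hpow]; omega
  have hq1 : q % 2 ^ (m + 3) = 4 * P' + 3 := by
    have := hmod
    unfold Nat.ModEq at this
    rwa [Nat.mod_eq_of_lt hlt] at this
  set t := q / 2 ^ (m + 3) with ht
  have hq2 : q = 8 * (P' + 1) * t + (4 * P' + 3) := by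
    have := Nat.div_add_mod q (2 ^ (m + 3))
    rw [hq1, ← ht, hpow] at this
    exact this.symm
  set r := 2 * (P' + 1) * t + P' with hr
  have hq3 : q = 2 * (2 * r + 1) + 1 := by rw [hq2, hr]; ring
  have hq4 : q + 1 = 2 ^ (m + 2) * (2 * t + 1) := by
    rw [pow_add, hP', hq2]; ring
  refine ⟨q, hq, by omega, ?_⟩
  have e1 : q ^ 2 - 1 = (q + 1) * (2 * (2 * r + 1)) := by
    have : q ^ 2 - 1 = (q + 1) * (q - 1) := by
      have := Nat.sq_sub_sq q 1
      simpa using this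
    rw [this]
    congr 1
    omega
  have e2 : q ^ 2 - q = q * (2 * (2 * r + 1)) := by
    have : q ^ 2 - q = q * (q - 1) := by
      rw [Nat.mul_sub, mul_one, sq]
    rw [this]
    congr 1
    omega
  have e3 : (q ^ 2 - 1) * (q ^ 2 - q) = 2 ^ (m + 3 + 1) * ((2 * t + 1) * (2 * r + 1) ^ 2 * q) := by
    rw [e1, e2, hq4]; ring
  rw [e3]
  apply factorization_two_pow_mul_odd
  have hqo : Odd q := ⟨2 * r + 1, hq3⟩
  exact (Odd.mul ⟨t, rfl⟩ (Odd.pow ⟨r, rfl⟩)).mul hqo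

end Cfsg.Agent.Lib.Helper88.MC
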