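import Mathlib

set_option autoImplicit false

/-! Chains of subgroups with cyclic steps: plumbing between `Fin`-indexed and `ℕ`-indexed chains
(helper88). -/

namespace Cfsg.Agent.Lib.Helper88

variable {Ω : Type*} [Group Ω]

/-- A chain `⊥ = c 0 ≤ … ≤ c m = S` with cyclic steps all of whose members are `Good`. -/
def CycChain (S : Subgroup Ω) (Good : Subgroup Ω → Prop) : Prop :=
  ∃ (m : ℕ) (c : Fin (m + 1) → Subgroup Ω), c 0 = ⊥ ∧ c (Fin.last m) = S ∧
    (∀ i : Fin (m + 1), Good (c i)) ∧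
    ∀ i : Fin m, c i.castSucc ≤ c i.succ ∧ ∃ x ∈ S, c i.succ = c i.castSucc ⊔ Subgroup.zpowers x

theorem CycChain.exists_nat {S : Subgroup Ω} {Good : Subgroup Ω → Prop} (h : CycChain S Good) :
    ∃ (c : ℕ → Subgroup Ω) (m : ℕ), Monotone c ∧ c 0 = ⊥ ∧ c m = S ∧ (∀ i, Good (c i)) ∧
      ∀ i, ∃ x ∈ S, c (i + 1) = c i ⊔ Subgroup.zpowers x := by
  obtain ⟨m, c, h0, hm, hg, hs⟩ := h
  have hlt : ∀ i : ℕ, min i m < m + 1 := fun i => by omega
  have hstep : ∀ i : ℕ, ∃ x ∈ S, c ⟨min (i + 1) m, hlt _⟩ = c ⟨min i m, hlt _⟩ ⊔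
      Subgroup.zpowers x := by
    intro i
    by_cases hi : i < m
    · obtain ⟨-, x, hx, hx'⟩ := hs ⟨i, hi⟩
      refine ⟨x, hx, ?_⟩
      have e1 : (⟨min (i + 1) m, hlt _⟩ : Fin (m + 1)) = (⟨i, hi⟩ : Fin m).succ := by
        ext; simp; omega
      have e2 : (⟨min i m, hlt _⟩ : Fin (m + 1)) = (⟨i, hi⟩ : Fin m).castSucc := by
        ext; simp; omega
      rw [e1, e2, hx']
    · refine ⟨1, S.one_mem, ?_⟩
      have e1 : (⟨min (i + 1) m, hlt _⟩ : Fin (m + 1)) = ⟨min i m, hlt _⟩ := by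
        ext; simp; omega
      rw [e1, Subgroup.zpowers_one_eq_bot, sup_bot_eq]
  refine ⟨fun i => c ⟨min i m, hlt i⟩, m, ?_, ?_, ?_, fun i => hg _, hstep⟩
  · apply monotone_nat_of_le_succ
    intro i
    obtain ⟨x, -, hx⟩ := hstep i
    show c ⟨min i m, hlt _⟩ ≤ c ⟨min (i + 1) m, hlt _⟩
    rw [hx]
    exact le_sup_left
  · show c ⟨min 0 m, hlt _⟩ = ⊥
    rw [← h0]
    congr 1
  · show c ⟨min m m, hlt _⟩ = S
    rw [← hm]
    congr 1
    ext; simp

theorem cycChain_of_nat {S : Subgroup Ω} {Good : Subgroup Ω → Prop} (W : ℕ → Subgroup Ω) (m : ℕ)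
    (h0 : W 0 = ⊥) (hm : W m = S) (hg : ∀ i, Good (W i))
    (hs : ∀ i, ∃ x ∈ S, W (i + 1) = W i ⊔ Subgroup.zpowers x) : CycChain S Good := by
  refine ⟨m, fun i => W i, h0, hm, fun i => hg _, fun i => ?_⟩
  obtain ⟨x, hx, hx'⟩ := hs i
  have e1 : W ((i.succ : Fin (m + 1)) : ℕ) = W ((i : ℕ) + 1) := by simp
  have e2 : W ((i.castSucc : Fin (m + 1)) : ℕ) = W (i : ℕ) := by simp
  refine ⟨?_, x, hx, ?_⟩
  · show W ((i.castSucc : Fin (m + 1)) : ℕ) ≤ W ((i.succ : Fin (m + 1)) : ℕ)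
    rw [e1, e2, hx']
    exact le_sup_left
  · show W ((i.succ : Fin (m + 1)) : ℕ) = W ((i.castSucc : Fin (m + 1)) : ℕ) ⊔ _
    rw [e1, e2, hx']

theorem cycChain_of_step (S : Subgroup Ω) [Finite S] (Good : Subgroup Ω → Prop) (h0 : Good ⊥)
    (hstep : ∀ U : Subgroup Ω, Good U → U < S →
      ∃ x ∈ S, x ∉ U ∧ Good (U ⊔ Subgroup.zpowers x)) : CycChain S Good := by
  classical
  -- one step
  have hnext : ∀ U : {U : Subgroup Ω // Good U ∧ U ≤ S}, ∃ V : {U : Subgroup Ω // Good U ∧ U ≤ S},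
      (∃ x ∈ S, V.1 = U.1 ⊔ Subgroup.zpowers x) ∧ (U.1 = S ∨ U.1 < V.1) := by
    rintro ⟨U, hU, hUS⟩
    by_cases hlt : U < S
    · obtain ⟨x, hx, hxU, hg⟩ := hstep U hU hlt
      refine ⟨⟨U ⊔ Subgroup.zpowers x, hg, sup_le hUS ((Subgroup.zpowers_le).2 hx)⟩,
        ⟨x, hx, rfl⟩, Or.inr ?_⟩
      refine lt_of_le_of_ne le_sup_left ?_
      intro h
      apply hxU
      have h' : U = U ⊔ Subgroup.zpowers x := h
      rw [h']
      exact (le_sup_right : Subgroup.zpowers x ≤ U ⊔ Subgroup.zpowers x) (Subgroup.mem_zpowers x)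
    · refine ⟨⟨U, hU, hUS⟩, ⟨1, S.one_mem, ?_⟩, Or.inl ?_⟩
      · rw [Subgroup.zpowers_one_eq_bot, sup_bot_eq]
      · by_contra hne
        exact hlt (lt_of_le_of_ne hUS hne)
  choose nxt hn1 hn2 using hnext
  let W : ℕ → {U : Subgroup Ω // Good U ∧ U ≤ S} := fun t =>
    Nat.rec ⟨⊥, h0, bot_le⟩ (fun _ U => nxt U) t
  have hW0 : (W 0).1 = ⊥ := rfl
  have hWs : ∀ t, W (t + 1) = nxt (W t) := fun t => rfl
  have hfin : ∀ U : {U : Subgroup Ω // Good U ∧ U ≤ S}, Finite U.1 := fun U =>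
    Finite.of_injective (Subgroup.inclusion U.2.2) (Subgroup.inclusion_injective _)
  have hcard : ∀ t, (W t).1 = S ∨ t + 1 ≤ Nat.card (W t).1 := by
    intro t
    induction t with
    | zero =>
      right
      have := hfin (W 0)
      exact Nat.card_pos
    | succ t ih =>
      rcases hn2 (W t) with h | h
      · left
        rw [hWs]
        obtain ⟨x, hx, hx'⟩ := hn1 (W t)
        rw [hx', h]
        exact sup_eq_left.2 ((Subgroup.zpowers_le).2 hx)
      · rcases ih with ih | ih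
        · exfalso
          rw [ih] at h
          exact absurd (nxt (W t)).2.2 (not_le_of_gt h)
        · right
          rw [hWs]
          have := hfin (nxt (W t))
          have h3 : Nat.card (W t).1 < Nat.card (nxt (W t)).1 := by
            by_contra hcon
            exact absurd (Subgroup.eq_of_le_of_card_ge h.le (not_lt.1 hcon)) h.ne
          omega
  refine cycChain_of_nat (fun t => (W t).1) (Nat.card S) hW0 ?_ (fun t => (W t).2.1) ?_
  · rcases hcard (Nat.card S) with h | h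
    · exact h
    · exfalso
      have := Subgroup.card_le_of_le (W (Nat.card S)).2.2
      omega
  · intro t
    exact hn1 (W t)

end Cfsg.Agent.Lib.Helper88
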