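import Cfsg.Agent.Lib.Helper84.FusionSeries
import Cfsg.Agent.Lib.Helper84.ChainStab2
import Cfsg.Agent.Lib.Helper87.AutSystem
import Cfsg.Agent.Lib.Helper88.FusAutSystem
import Cfsg.Agent.Lib.Helper88.FusAbelian
import Cfsg.Agent.Lib.Helper88.SSChain
import Cfsg.Agent.Lib.Helper59.SSA2
import Cfsg.Agent.Lib.Helper59.SSB1
import Cfsg.Agent.Lib.Helper59.SSB2
import Cfsg.Agent.Lib.Helper64.SSB3

set_option autoImplicit false

/-! Fusion systems of supersoluble type: the fusion-theoretic assembly (helper88). -/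

namespace Cfsg.Agent.Lib.Helper88

open Cfsg Cfsg.FusionSystem Cfsg.Agent.Lib.Helper84
open Cfsg.Agent.Lib.Helper59.SS Cfsg.Agent.Lib.Helper64.SS

variable {Ω : Type*} [Group Ω] {S : Subgroup Ω}

theorem stronglyClosed_top (F : FusionSystem S) : F.StronglyClosed S :=
  ⟨le_rfl, fun _ _ _ hφ x => (F.le_of_mem hφ).2 x⟩

/-- data extracted from a strongly closed chain, restricted to a subgroup `P ≤ S`. -/
theorem chain_restrict {F : FusionSystem S} (h : CycChain S F.StronglyClosed) {P : Subgroup Ω}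
    (hPS : P ≤ S) :
    ∃ (d : ℕ → Subgroup P) (m : ℕ), Monotone d ∧ d 0 = ⊥ ∧ d m = ⊤ ∧ (∀ i, (d i).Normal) ∧
      (∀ α ∈ F.autGroup P, ∀ i, ∀ x ∈ d i, α x ∈ d i) ∧
      ∀ i, ∃ x, d (i + 1) = d i ⊔ Subgroup.zpowers x := by
  obtain ⟨c, m, hmono, h0, hm, hsc, hstep⟩ := h.exists_nat
  refine ⟨fun i => (c i).subgroupOf P, m, ?_, ?_, ?_, ?_, ?_, ?_⟩
  · intro i j hij x hx
    exact hmono hij hx
  · show (c 0).subgroupOf P = ⊥
    rw [h0, Subgroup.bot_subgroupOf]
  · show (c m).subgroupOf P = ⊤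
    rw [hm, Subgroup.subgroupOf_eq_top]
    exact hPS
  · intro i
    constructor
    intro n hn g
    exact conj_mem_of_mem_normalizer (stronglyClosed_le_normalizer (hsc i) (hPS g.2)) hn
  · intro α hα i x hx
    exact (hsc i).2 (P ⊓ c i) inf_le_right _
      (restrict_mem F ((mem_autGroup_iff F hPS α).1 hα) inf_le_left) ⟨x, x.2, hx⟩
  · intro i
    obtain ⟨x, hx, hx'⟩ := hstep i
    have hN := stronglyClosed_le_normalizer (hsc i) hx
    obtain ⟨y, hy⟩ := exists_zpowers_subgroupOf (c i) P x (fun y hy =>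
      ⟨conj_mem_of_mem_normalizer hN hy, inv_conj_mem_of_mem_normalizer hN hy⟩)
    refine ⟨y, ?_⟩
    show (c (i + 1)).subgroupOf P = _
    rw [hx', hy]

/-- A saturated fusion system with a strongly closed chain with cyclic steps has `S` normal. -/
theorem isNormal_top_of_cycChain [Finite S] {p : ℕ} [Fact p.Prime] (hS : IsPGroup p S)
    (F : FusionSystem S) (hF : F.IsSaturated p) (h : CycChain S F.StronglyClosed) :
    F.IsNormal S := by
  rw [normal_iff_stronglyClosed hS F hF]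
  refine ⟨stronglyClosed_top F, fun P hc hr => ?_⟩
  have hPS : P ≤ S := hc.1
  have hfinP : Finite P := finite_of_le hPS
  have hcen' : centralizerIn S P ≤ P := hc.2 P (isConj_refl F hPS)
  obtain ⟨d, m, hmono, h0, hm, hn, hinv, hstep⟩ := chain_restrict h hPS
  have hDp : IsPGroup p (chainStab d hmono) := isPGroup_chainStab (hS.to_le hPS) d hmono h0 m hm
  have hnormal := chainStab_normal d hmono (F.autGroup P) hinv
  have hDcore : (chainStab d hmono).subgroupOf (F.autGroup P) ≤ pCore p (F.autGroup P) :=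
    le_sSup ⟨hnormal, hDp.comap_of_injective _ (Subgroup.subtype_injective _)⟩
  have hDinn : ∀ δ ∈ chainStab d hmono, δ ∈ F.autGroup P → δ ∈ Inn P := by
    intro δ hδ hδA
    rw [← hr.2]
    exact ⟨⟨δ, hδA⟩, hDcore hδ, rfl⟩
  have hTle := autInducedBy_le_autGroup F hPS
  have hTnormal : ((autInducedBy S P).subgroupOf (F.autGroup P)).Normal := by
    constructor
    intro t ht a
    rw [Subgroup.mem_subgroupOf] at ht ⊢
    have h1 : (a : MulAut P) * t * (a : MulAut P)⁻¹ * (t : MulAut P)⁻¹ ∈ Inn P := by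
      apply hDinn
      · exact commutator_mem_chainStab d hmono hn hstep (F.autGroup P) hinv _ _ a.2 t.2
      · exact Subgroup.mul_mem _ (Subgroup.mul_mem _ (Subgroup.mul_mem _ a.2 t.2)
          (Subgroup.inv_mem _ a.2)) (Subgroup.inv_mem _ t.2)
    have h2 := Subgroup.mul_mem _ (inn_le_autInducedBy hPS h1) ht
    rw [inv_mul_cancel_right] at h2
    exact h2
  have hTcore : (autInducedBy S P).subgroupOf (F.autGroup P) ≤ pCore p (F.autGroup P) :=
    le_sSup ⟨hTnormal, (isPGroup_autInducedBy hS P).comap_of_injective _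
      (Subgroup.subtype_injective _)⟩
  by_contra hcon
  have hlt : P < S := lt_of_le_of_ne hPS (fun h => hcon h.ge)
  obtain ⟨t, htS, htP, htN⟩ := exists_mem_normalizer_not_mem hS hlt
  apply htP
  apply mem_of_conjAut_mem_inn hcen' htS hPS htN
  rw [← hr.2]
  exact ⟨⟨conjAut P t htN, hTle (conjAut_mem_autInducedBy htN htS)⟩,
    hTcore (conjAut_mem_autInducedBy htN htS), rfl⟩

/-- an element of a `p`-group which lies in a group of order prime to `p` is trivial. -/
theorem eq_one_of_pow_of_coprime {X : Type*} [Group X] {p : ℕ}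
    {H : Subgroup X} (hH : (Nat.card H).Coprime p) {g : X} {k : ℕ} (hk' : g ^ p ^ k = 1)
    (hgH : g ∈ H) : g = 1 := by
  have h1 : orderOf g ∣ p ^ k := orderOf_dvd_of_pow_eq_one hk'
  have h2 : orderOf g ∣ Nat.card H := by
    have := orderOf_dvd_natCard (⟨g, hgH⟩ : H)
    rwa [Subgroup.orderOf_mk] at this
  have h3 : orderOf g ∣ 1 := by
    have := Nat.Coprime.pow_right k hH
    rw [← this]
    exact Nat.dvd_gcd h2 h1
  exact orderOf_eq_one_iff.1 (Nat.dvd_one.1 h3)

theorem eq_one_of_mem_pGroup_of_coprime {X : Type*} [Group X] {p : ℕ}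
    {D H : Subgroup X} (hD : IsPGroup p D) (hH : (Nat.card H).Coprime p) {g : X} (hgD : g ∈ D)
    (hgH : g ∈ H) : g = 1 := by
  obtain ⟨k, hk⟩ := hD ⟨g, hgD⟩
  have hk' : g ^ p ^ k = 1 := by simpa using congrArg Subtype.val hk
  exact eq_one_of_pow_of_coprime hH hk' hgH

/-- abstract form: a `p'`-group of automorphisms preserving a normal chain with cyclic steps is
abelian of exponent dividing `p - 1`. -/
theorem comm_exp_of_chain {P : Type*} [Group P] [Finite P] {p : ℕ} [Fact p.Prime]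
    (hP : IsPGroup p P) (H : Subgroup (MulAut P)) (hH : (Nat.card H).Coprime p)
    (d : ℕ → Subgroup P) (m : ℕ) (hmono : Monotone d) (h0 : d 0 = ⊥) (hm : d m = ⊤)
    (hn : ∀ i, (d i).Normal) (hinv : ∀ α ∈ H, ∀ i, ∀ x ∈ d i, α x ∈ d i)
    (hstep : ∀ i, ∃ x, d (i + 1) = d i ⊔ Subgroup.zpowers x) :
    (∀ a ∈ H, ∀ b ∈ H, a * b = b * a) ∧ ∀ h ∈ H, h ^ (p - 1) = 1 := by
  have hDp : IsPGroup p (chainStab d hmono) := isPGroup_chainStab hP d hmono h0 m hm
  constructor
  · intro a ha b hb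
    have h1 := commutator_mem_chainStab d hmono hn hstep H hinv a b ha hb
    have h2 : a * b * a⁻¹ * b⁻¹ ∈ H :=
      H.mul_mem (H.mul_mem (H.mul_mem ha hb) (H.inv_mem ha)) (H.inv_mem hb)
    have h3 := eq_one_of_mem_pGroup_of_coprime hDp hH h1 h2
    have h4 : a * b * a⁻¹ = b := mul_inv_eq_one.mp h3
    exact mul_inv_eq_iff_eq_mul.mp h4
  · intro h hh
    have h1 := pow_mem_chainStab hP d hmono hn hstep h (fun i x hx => hinv h hh i x hx)
    have h3 := eq_one_of_mem_pGroup_of_coprime hDp hH h1 (H.pow_mem hh _)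
    rw [pow_mul] at h3
    obtain ⟨N, hN⟩ := hP.exists_card_eq
    rw [hN] at h3
    exact eq_one_of_pow_of_coprime hH h3 (H.pow_mem hh _)

/-- If every saturated fusion system over `S` has a strongly closed chain with cyclic steps then
every `p'`-group of automorphisms of `S` is abelian of exponent dividing `p - 1`. -/
theorem comm_exp_of_cycChain [Finite S] {p : ℕ} [Fact p.Prime] (hS : IsPGroup p S)
    (hall : ∀ F : FusionSystem S, F.IsSaturated p → CycChain S F.StronglyClosed)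
    (H : Subgroup (MulAut S)) (hH : (Nat.card H).Coprime p) :
    (∀ a ∈ H, ∀ b ∈ H, a * b = b * a) ∧ ∀ h ∈ H, h ^ (p - 1) = 1 := by
  have hA : Inn S ≤ Inn S ⊔ H := le_sup_left
  have hAm : ∀ a ∈ Inn S ⊔ H, a ^ Nat.card H ∈ Inn S := by
    intro a ha
    rw [← QuotientGroup.eq_one_iff, QuotientGroup.mk_pow]
    have h1 : (a : MulAut S ⧸ Inn S) ∈ H.map (QuotientGroup.mk' (Inn S)) := by
      have h2 : (Inn S ⊔ H).map (QuotientGroup.mk' (Inn S)) = H.map (QuotientGroup.mk' (Inn S)) := by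
        rw [Subgroup.map_sup]
        have : (Inn S).map (QuotientGroup.mk' (Inn S)) = ⊥ := by
          rw [Subgroup.map_eq_bot_iff, QuotientGroup.ker_mk']
        rw [this, bot_sup_eq]
      rw [← h2]
      exact ⟨a, ha, rfl⟩
    obtain ⟨h, hh, hha⟩ := h1
    rw [← hha, ← map_pow]
    have h3 : h ^ Nat.card H = 1 := by
      have h4 : ((⟨h, hh⟩ : H) ^ Nat.card H : H) = 1 := pow_card_eq_one'
      exact congrArg Subtype.val h4
    rw [h3, map_one]
  have hsat := Cfsg.Agent.Lib.Helper87.autSystem_saturated hS (Inn S ⊔ H) hA (Nat.card H) hH hAm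
  obtain ⟨d, m, hmono, h0, hm, hn, hinv, hstep⟩ := chain_restrict (hall _ hsat) (le_refl S)
  rw [Cfsg.Agent.Lib.Helper87.autGroup_autSystem_self] at hinv
  exact comm_exp_of_chain hS H hH d m hmono h0 hm hn
    (fun α hα => hinv α ((le_sup_right : H ≤ Inn S ⊔ H) hα)) hstep

theorem autInducedBy_self_eq_inn : autInducedBy S S = Inn S := by
  apply le_antisymm _ (inn_le_autInducedBy le_rfl)
  intro α hα
  obtain ⟨g, hg, hg'⟩ := (mem_autInducedBy_iff S S α).1 hα
  refine ⟨⟨g, hg⟩, ?_⟩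
  ext x
  rw [hg' x]
  rfl

/-- If `S` is normal in `F` and the `p'`-groups of automorphisms of `S` are abelian of exponent
dividing `p - 1` then `F` has a strongly closed chain with cyclic steps. -/
theorem cycChain_of_isNormal_top [Finite S] {p : ℕ} [Fact p.Prime] (hS : IsPGroup p S)
    (F : FusionSystem S) (hF : F.IsSaturated p) (hN : F.IsNormal S)
    (hall : ∀ H : Subgroup (MulAut S), (Nat.card H).Coprime p →
      (∀ a ∈ H, ∀ b ∈ H, a * b = b * a) ∧ ∀ h ∈ H, h ^ (p - 1) = 1) :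
    CycChain S F.StronglyClosed := by
  have hpp : p.Prime := Fact.out
  have hfin : Finite (F.autGroup S) := finite_autGroup F le_rfl
  obtain ⟨-, R, hR⟩ := fullyAutomized_top p F hF
  rw [autInducedBy_self_eq_inn] at hR
  have hnorm : ((Inn S).subgroupOf (F.autGroup S)).Normal := inferInstance
  have hcop : (Nat.card ((Inn S).subgroupOf (F.autGroup S))).Coprime
      ((Inn S).subgroupOf (F.autGroup S)).index := by
    rw [← hR]
    exact R.card_coprime_index
  obtain ⟨H₀, hH₀⟩ := Subgroup.exists_right_complement'_of_coprime hcop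
  have hcardH : (Nat.card (H₀.map (F.autGroup S).subtype)).Coprime p := by
    rw [Subgroup.card_map_of_injective (Subgroup.subtype_injective _), ← hH₀.symm.index_eq_card,
      ← hR]
    exact ((Nat.Prime.coprime_iff_not_dvd hpp).2 R.not_dvd_index).symm
  obtain ⟨hcomm, hexp⟩ := hall _ hcardH
  have hHA : ∀ h ∈ H₀.map (F.autGroup S).subtype, h ∈ F.autGroup S := by
    rintro _ ⟨h, -, rfl⟩
    exact h.2
  have hdec : ∀ α ∈ F.autGroup S, ∃ g : S, ∃ h ∈ H₀.map (F.autGroup S).subtype,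
      α = MulAut.conj g * h := by
    intro α hα
    obtain ⟨⟨n, h⟩, hnh⟩ := hH₀.2 ⟨α, hα⟩
    obtain ⟨g, hg⟩ := (Subgroup.mem_subgroupOf.1 n.2 : ((n : F.autGroup S) : MulAut S) ∈ Inn S)
    refine ⟨g, h, ⟨h, h.2, rfl⟩, ?_⟩
    have := congrArg Subtype.val hnh
    rw [hg]
    exact this.symm
  apply cycChain_of_step S F.StronglyClosed (stronglyClosed_bot F)
  intro U hU hlt
  have hUn : (U.subgroupOf S).Normal := by
    constructor
    intro n hn g
    exact conj_mem_of_mem_normalizer (stronglyClosed_le_normalizer hU g.2) hn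
  have hUinv : ∀ h ∈ H₀.map (F.autGroup S).subtype, ∀ x ∈ U.subgroupOf S, h x ∈ U.subgroupOf S := by
    intro h hh x hx
    exact hU.2 (S ⊓ U) inf_le_right _
      (restrict_mem F ((mem_autGroup_iff F le_rfl h).1 (hHA h hh)) inf_le_left) ⟨x, x.2, hx⟩
  have hne : U.subgroupOf S ≠ ⊤ := by
    intro h
    exact absurd (Subgroup.subgroupOf_eq_top.1 h) (not_le_of_gt hlt)
  obtain ⟨x, hxU, hVn, hVH⟩ := exists_step hS _ hcomm hexp (U.subgroupOf S) hUn hUinv hne
  refine ⟨x, x.2, hxU, ?_⟩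
  have hmap : (U.subgroupOf S ⊔ Subgroup.zpowers x).map S.subtype =
      U ⊔ Subgroup.zpowers (x : Ω) := by
    rw [Subgroup.map_sup, Subgroup.subgroupOf_map_subtype, MonoidHom.map_zpowers,
      inf_eq_left.2 hlt.le]
    rfl
  have hle : U ⊔ Subgroup.zpowers (x : Ω) ≤ S := sup_le hlt.le ((Subgroup.zpowers_le).2 x.2)
  refine ⟨hle, fun R hR φ hφ y => ?_⟩
  obtain ⟨hRS, α, hα, hφα⟩ := le_autSystem_of_isNormal_top F hN R hφ
  rw [hφα y, ← hmap]
  have hy : (⟨y, hRS y.2⟩ : S) ∈ U.subgroupOf S ⊔ Subgroup.zpowers x := by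
    have h1 := hR y.2
    rw [← hmap] at h1
    obtain ⟨z, hz, hzy⟩ := h1
    have : z = ⟨y, hRS y.2⟩ := Subtype.ext hzy
    rwa [← this]
  obtain ⟨g, h, hh, rfl⟩ := hdec α hα
  refine ⟨(MulAut.conj g * h) ⟨y, hRS y.2⟩, ?_, rfl⟩
  rw [SetLike.mem_coe, MulAut.mul_apply, MulAut.conj_apply]
  exact hVn.conj_mem _ (hVH h hh _ hy) g

end Cfsg.Agent.Lib.Helper88
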