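import Cfsg.Agent.Lib.Helper86.SolvChain

set_option autoImplicit false

/-! Chains of strongly closed subgroups: restriction to an invariant subsystem, images and preimages in a
factor system, and gluing (helper88). -/

namespace Cfsg.Agent.Lib.Helper88

open Cfsg Cfsg.FusionSystem Cfsg.Agent.Lib.Helper84 Cfsg.Agent.Lib.Helper85 Cfsg.Agent.Lib.Helper86
open scoped commutatorElement

variable {Ω : Type*} [Group Ω] {S : Subgroup Ω}

/-- Concatenation of chains. -/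
theorem scchain_trans {F : FusionSystem S} {U W : Subgroup Ω} (h₂ : SCChain F U W) :
    ∀ (n : ℕ) (R : Subgroup Ω) (T : Fin (n + 1) → Subgroup Ω), T 0 = R → T (Fin.last n) = U → Monotone T →
      (∀ i, F.StronglyClosed (T i)) → (∀ i : Fin n, ⁅T i.succ, T i.succ⁆ ≤ T (Fin.castSucc i)) →
      SCChain F R W := by
  intro n
  induction n with
  | zero =>
    intro R T h0 hl _ _ _
    have : R = U := by rw [← h0, ← hl]; rfl
    rw [this]; exact h₂
  | succ n ih =>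
    intro R T h0 hl hmono hsc hcomm
    have h1 : SCChain F (T 1) W := by
      refine ih (T 1) (fun i => T i.succ) rfl ?_ ?_ (fun i => hsc _) ?_
      · exact hl
      · intro a b hab
        exact hmono (Fin.succ_le_succ_iff.mpr hab)
      · intro i
        exact hcomm i.succ
    refine SCChain.cons (h0 ▸ hsc 0) ?_ ?_ h1
    · rw [← h0]; exact hmono (Fin.zero_le _)
    · rw [← h0]; exact hcomm 0

theorem SCChain_trans {F : FusionSystem S} {R U W : Subgroup Ω} (h₁ : SCChain F R U)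
    (h₂ : SCChain F U W) : SCChain F R W := by
  obtain ⟨n, T, h0, hl, hmono, hsc, hcomm⟩ := h₁
  exact scchain_trans h₂ n R T h0 hl hmono hsc hcomm

/-- Transport of a chain along a monotone operation on subgroups. -/
theorem SCChain_mapOp {Ω₂ : Type*} [Group Ω₂] {S₂ : Subgroup Ω₂} {F : FusionSystem S}
    {F₂ : FusionSystem S₂} (V : Subgroup Ω → Subgroup Ω₂) (hmonoV : Monotone V)
    (hscV : ∀ Y, F.StronglyClosed Y → F₂.StronglyClosed (V Y))
    (hcommV : ∀ Y₀ Y₁, F.StronglyClosed Y₁ → ⁅Y₁, Y₁⁆ ≤ Y₀ → ⁅V Y₁, V Y₁⁆ ≤ V Y₀)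
    {R U : Subgroup Ω} (h : SCChain F R U) : SCChain F₂ (V R) (V U) := by
  obtain ⟨n, T, h0, hl, hmono, hsc, hcomm⟩ := h
  exact ⟨n, fun i => V (T i), congrArg V h0, congrArg V hl, hmonoV.comp hmono, fun i => hscV _ (hsc i),
    fun i => hcommV _ _ (hsc _) (hcomm i)⟩

/-- The elements of `T` all of whose images under `Aut_F(T)` lie in `Y`. -/
def autCore (F : FusionSystem S) (T Y : Subgroup Ω) : Subgroup Ω where
  carrier := {x | ∃ h : x ∈ T, ∀ α ∈ F.autGroup T, ((α ⟨x, h⟩ : T) : Ω) ∈ Y}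
  mul_mem' := by
    rintro a b ⟨ha, ha'⟩ ⟨hb, hb'⟩
    refine ⟨T.mul_mem ha hb, fun α hα => ?_⟩
    have : (⟨a * b, T.mul_mem ha hb⟩ : T) = ⟨a, ha⟩ * ⟨b, hb⟩ := rfl
    rw [this, map_mul]
    exact Y.mul_mem (ha' α hα) (hb' α hα)
  one_mem' := by
    refine ⟨T.one_mem, fun α _ => ?_⟩
    have : (⟨1, T.one_mem⟩ : T) = 1 := rfl
    rw [this, map_one]
    exact Y.one_mem
  inv_mem' := by
    rintro a ⟨ha, ha'⟩
    refine ⟨T.inv_mem ha, fun α hα => ?_⟩
    have : (⟨a⁻¹, T.inv_mem ha⟩ : T) = (⟨a, ha⟩ : T)⁻¹ := rfl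
    rw [this, map_inv]
    exact Y.inv_mem (ha' α hα)

theorem mem_autCore {F : FusionSystem S} {T Y : Subgroup Ω} {x : Ω} :
    x ∈ autCore F T Y ↔ ∃ h : x ∈ T, ∀ α ∈ F.autGroup T, ((α ⟨x, h⟩ : T) : Ω) ∈ Y := Iff.rfl

theorem autCore_mono (F : FusionSystem S) (T : Subgroup Ω) : Monotone (autCore F T) := by
  rintro Y₁ Y₂ h x ⟨hx, hx'⟩
  exact ⟨hx, fun α hα => h (hx' α hα)⟩

theorem autCore_le (F : FusionSystem S) (T Y : Subgroup Ω) : autCore F T Y ≤ Y := by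
  rintro x ⟨hx, hx'⟩
  exact hx' 1 (Subgroup.one_mem _)

theorem autCore_bot (F : FusionSystem S) (T : Subgroup Ω) : autCore F T ⊥ = ⊥ :=
  le_bot_iff.mp (autCore_le F T ⊥)

theorem autCore_self (F : FusionSystem S) (T : Subgroup Ω) : autCore F T T = T :=
  le_antisymm (autCore_le F T T) (fun _ hx => ⟨hx, fun α _ => (α _).2⟩)

theorem autCore_comm (F : FusionSystem S) (T : Subgroup Ω) {Y₀ Y₁ : Subgroup Ω} (h : ⁅Y₁, Y₁⁆ ≤ Y₀) :
    ⁅autCore F T Y₁, autCore F T Y₁⁆ ≤ autCore F T Y₀ := by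
  rw [Subgroup.commutator_le]
  rintro a ⟨ha, ha'⟩ b ⟨hb, hb'⟩
  have hab : ⁅a, b⁆ ∈ T := (⁅(⟨a, ha⟩ : T), (⟨b, hb⟩ : T)⁆).2
  refine ⟨hab, fun α hα => ?_⟩
  have : (⟨⁅a, b⁆, hab⟩ : T) = ⁅(⟨a, ha⟩ : T), (⟨b, hb⟩ : T)⁆ := rfl
  rw [this, map_commutatorElement]
  exact h (Subgroup.commutator_mem_commutator (ha' α hα) (hb' α hα))

/-- For an invariant subsystem `E` over `T`, the `Aut_F(T)`-core of a subgroup strongly closed in `E` is strongly
closed in `F`. -/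
theorem stronglyClosed_autCore {F : FusionSystem S} {T : Subgroup Ω} {E : FusionSystem T}
    (hinv : E.IsInvariantIn F) {Y : Subgroup Ω} (hY : E.StronglyClosed Y) :
    F.StronglyClosed (autCore F T Y) := by
  obtain ⟨hsub, hT, hinvar, hfrat⟩ := hinv
  refine ⟨fun x hx => hT.1 hx.1, ?_⟩
  intro P hP φ hφ x
  have hPT : P ≤ T := fun y hy => (hP hy).1
  obtain ⟨α, hα, φ₀, hφ₀, hfac⟩ := hfrat P hPT φ hφ
  have hφ₀T : ∀ y : P, φ₀ y ∈ T := (E.le_of_mem hφ₀).2
  rw [hfac x (hφ₀T x)]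
  refine ⟨(α _).2, fun β hβ => ?_⟩
  obtain ⟨χ, hχ, hχ'⟩ := hinvar P hPT φ₀ hφ₀ (β * α) (Subgroup.mul_mem _ hβ hα)
  have hmem : ((((β * α) ⟨x, hPT x.2⟩ : T)) : Ω) ∈
      (P.subgroupOf T).map (T.subtype.comp (β * α).toMonoidHom) :=
    ⟨⟨x, hPT x.2⟩, x.2, rfl⟩
  have h1 := hχ' x (hφ₀T x) hmem
  have h2 : ((β ⟨((α ⟨φ₀ x, hφ₀T x⟩ : T) : Ω), (α _).2⟩ : T) : Ω) =
      (((β * α) ⟨φ₀ x, hφ₀T x⟩ : T) : Ω) := rfl
  rw [h2, ← h1]
  apply hY.2 _ _ χ hχ
  rintro _ ⟨y, hy, rfl⟩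
  exact (hP hy).2 (β * α) (Subgroup.mul_mem _ hβ hα)

/-- A chain for an invariant subsystem gives a chain of the ambient system up to `T`. -/
theorem SCChain_of_invariant {F : FusionSystem S} {T : Subgroup Ω} {E : FusionSystem T}
    (hinv : E.IsInvariantIn F) (h : SCChain E ⊥ T) : SCChain F ⊥ T := by
  have := SCChain_mapOp (F := E) (F₂ := F) (autCore F T) (autCore_mono F T)
    (fun Y hY => stronglyClosed_autCore hinv hY) (fun Y₀ Y₁ _ h => autCore_comm F T h) h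
  rwa [autCore_bot, autCore_self] at this

/-- A chain of `F` restricts to a chain of a subsystem. -/
theorem SCChain_subsystem {F : FusionSystem S} {T : Subgroup Ω} {E : FusionSystem T}
    (hsub : E.IsSubsystemOf F) (hTS : T ≤ S) (h : SCChain F ⊥ S) : SCChain E ⊥ T := by
  have := SCChain_mapOp (F := F) (F₂ := E) (fun Y => Y ⊓ T) (fun a b hab => inf_le_inf_right T hab)
    (fun Y hY => ⟨inf_le_right, fun R hR φ hφ x =>
      ⟨hY.2 R (hR.trans inf_le_left) φ (hsub R hφ) x, (E.le_of_mem hφ).2 x⟩⟩)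
    (fun Y₀ Y₁ _ h => le_inf ((Subgroup.commutator_mono inf_le_left inf_le_left).trans h)
      ((Subgroup.commutator_mono inf_le_right inf_le_right).trans (Subgroup.commutator_le_self T))) h
  simpa [inf_eq_right.mpr hTS] using this

section factor
variable {Ω' : Type*} [Group Ω'] {S' : Subgroup Ω'}

theorem SCChain_image {F : FusionSystem S} {T : Subgroup Ω} {θ : S →* Ω'} {D : FusionSystem S'}
    (hD : F.IsFactorSystem T θ D) (h : SCChain F ⊥ S) : SCChain D ⊥ S' := by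
  have := SCChain_mapOp (F := F) (F₂ := D) (imageAlong θ)
    (fun a b hab y hy => by
      obtain ⟨s, hs, rfl⟩ := mem_imageAlong.mp hy
      exact mem_imageAlong.mpr ⟨s, hab hs, rfl⟩)
    (fun Y hY => stronglyClosed_imageAlong F D θ hD hY)
    (fun Y₀ Y₁ _ h => by
      rw [Subgroup.commutator_le]
      intro a ha b hb
      obtain ⟨s, hs, rfl⟩ := mem_imageAlong.mp ha
      obtain ⟨t, ht, rfl⟩ := mem_imageAlong.mp hb
      rw [← map_commutatorElement]
      exact mem_imageAlong.mpr ⟨_, h (Subgroup.commutator_mem_commutator hs ht), rfl⟩) h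
  have e1 : imageAlong θ (⊥ : Subgroup Ω) = ⊥ := by
    rw [eq_bot_iff]
    intro y hy
    obtain ⟨s, hs, rfl⟩ := mem_imageAlong.mp hy
    have : s = 1 := Subtype.ext hs
    rw [this, map_one]; exact Subgroup.one_mem _
  have e2 : imageAlong θ S = S' := by
    rw [← hD.2.2.1]
    ext y
    constructor
    · intro hy
      obtain ⟨s, -, rfl⟩ := mem_imageAlong.mp hy
      exact ⟨s, rfl⟩
    · rintro ⟨s, rfl⟩
      exact mem_imageAlong.mpr ⟨s, s.2, rfl⟩
  rwa [e1, e2] at this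

theorem SCChain_preimage {F : FusionSystem S} {T : Subgroup Ω} {θ : S →* Ω'} {D : FusionSystem S'}
    (hD : F.IsFactorSystem T θ D) (hmor : F.IsMorphism D θ) (h : SCChain D ⊥ S') : SCChain F T S := by
  have := SCChain_mapOp (F := D) (F₂ := F) (preimageAlong θ)
    (fun a b hab y hy => by
      obtain ⟨hs, hy'⟩ := mem_preimageAlong.mp hy
      exact mem_preimageAlong.mpr ⟨hs, hab hy'⟩)
    (fun Y hY => stronglyClosed_preimageAlong F D θ hmor hY)
    (fun Y₀ Y₁ _ h => by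
      rw [Subgroup.commutator_le]
      intro a ha b hb
      obtain ⟨haS, ha'⟩ := mem_preimageAlong.mp ha
      obtain ⟨hbS, hb'⟩ := mem_preimageAlong.mp hb
      refine mem_preimageAlong.mpr ⟨(⁅(⟨a, haS⟩ : S), (⟨b, hbS⟩ : S)⁆).2, ?_⟩
      have : (⟨⁅a, b⁆, (⁅(⟨a, haS⟩ : S), (⟨b, hbS⟩ : S)⁆).2⟩ : S) = ⁅(⟨a, haS⟩ : S), (⟨b, hbS⟩ : S)⁆ := rfl
      rw [this, map_commutatorElement]
      exact h (Subgroup.commutator_mem_commutator ha' hb')) h
  have e1 : preimageAlong θ (⊥ : Subgroup Ω') = T := by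
    ext x
    rw [mem_preimageAlong]
    constructor
    · rintro ⟨hx, hx'⟩
      exact (hD.2.1 _).mp hx'
    · intro hx
      exact ⟨hD.1 hx, (hD.2.1 ⟨x, hD.1 hx⟩).mpr hx⟩
  have e2 : preimageAlong θ S' = S := by
    ext x
    rw [mem_preimageAlong]
    constructor
    · rintro ⟨hx, -⟩; exact hx
    · intro hx
      exact ⟨hx, hD.2.2.1 ▸ ⟨_, rfl⟩⟩
  rwa [e1, e2] at this

end factor

end Cfsg.Agent.Lib.Helper88
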